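import Mathlib
import Cfsg.Agent.H197.Cls.DisW

/-!
# S2451, helper197: `Dis = {1}`: the types moved at fixed chambers

* `Mv Δ i x` : `x` moves an `i`-neighbour of a fixed chamber;
* `not_mv_both` : if `Dis Δ a b ⊆ {1}` no type is moved by both `a` and `b`;
* `exists_mv` : an element with a fixed chamber and a moved chamber moves some type;
* `mv_of_m3` : the set of the moved types is closed under simple bonds.
-/

set_option autoImplicit false
set_option linter.unusedSectionVars false

open scoped Pointwise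

namespace Cfsg.Agent.H197.Cls

open Cfsg.Agent.Tits.Core Cfsg.Agent.Tits.Core.Bldg Cfsg.Agent.Tits.Exchange Cfsg.Agent.Tits Cfsg.Agent.FixBN

variable {I : Type*} {M : CoxeterMatrix I} {W : Type*} [Group W] {cs : CoxeterSystem M W} {C : Type*}

local prefix:100 "ℓ" => cs.length

variable {Δ : Bldg cs C} {G : Type*} [Group G] [MulAction G C] {p : ℕ}

/-- `x` moves an `i`-neighbour of a fixed chamber -/
def Mv (Δ : Bldg cs C) (i : I) (x : G) : Prop := ∃ c d : C, x • c = c ∧ Δ.δ c d = cs.simple i ∧ x • d ≠ d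

/-- the `i`-panels of the fixed chambers of `x` are fixed if `i` is not moved -/
theorem fix_of_not_mv {i : I} {x : G} (h : ¬ Mv Δ i x) {c d : C} (hc : x • c = c) (hd : d ∈ Δ.Pan i c) : x • d = d := by
  by_contra hne
  rcases hd with rfl | hd
  · exact hne hc
  · exact h ⟨c, d, hc, hd, hne⟩

theorem exists_mv {x : G} {c d : C} (hc : x • c = c) (hd : x • d ≠ d) : ∃ i, Mv Δ i x := by
  have key : ∀ (w : W) (d : C), Δ.δ c d = w → x • d ≠ d → ∃ i, Mv Δ i x := by
    intro w
    induction w using cs.simple_induction_right with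
    | one =>
      intro d h h'
      rw [← Δ.eq_of_δ_eq_one h] at h'
      exact absurd hc h'
    | mul_simple_right w i ih =>
      intro d h h'
      obtain ⟨z, hz, hz'⟩ := Δ.exists_step c d i
      have h1 : Δ.δ c z = w := by rw [hz', h, mul_assoc, cs.simple_mul_simple_self, mul_one]
      by_cases h2 : x • z = z
      · exact ⟨i, z, d, h2, Δ.δ_symm_simple hz, h'⟩
      · exact ih z h1 h2
  exact key _ d rfl hd

section Sys

variable (S : Sys Δ G p)

include S

theorem delta_of_mv {i : I} {x : G} (h : Mv Δ i x) : ∃ c, Δ.δ c (x • c) = cs.simple i := by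
  obtain ⟨c, d, hc, hd, hne⟩ := h
  refine ⟨d, ?_⟩
  refine Δ.δ_eq_of_mem_Pan (x := c) (Δ.mem_Pan_of_δ hd) ?_ (Ne.symm hne)
  have h1 := smul_mem_Pan S (g := x) (Δ.mem_Pan_of_δ hd)
  rwa [hc] at h1

theorem Mv.inv {i : I} {x : G} (h : Mv Δ i x) : Mv Δ i x⁻¹ := by
  obtain ⟨c, d, hc, hd, hne⟩ := h
  refine ⟨c, d, by rw [inv_smul_eq_iff, hc], hd, fun h1 => hne ?_⟩
  rw [inv_smul_eq_iff] at h1
  exact h1.symm

theorem not_mv_both {a b : G} (h : Dis Δ a b ⊆ {1}) (i : I) : ¬ (Mv Δ i a ∧ Mv Δ i b) := by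
  rintro ⟨h1, h2⟩
  have h3 : cs.simple i ∈ Dis Δ a b := ⟨delta_of_mv S (Mv.inv S h1), delta_of_mv S h2⟩
  have h4 : cs.simple i = 1 := h h3
  have h5 := congrArg cs.length h4
  rw [cs.length_simple, cs.length_one] at h5
  omega

/-- elements of `W_{ij}` without left descent `i`, `m = 3` -/
theorem cases_m3 [F : OppRes.Cox cs] {i j : I} (hM : M i j = 3) {w : W} (hw : w ∈ WJ cs {i, j})
    (hlt : ℓ w < ℓ (cs.simple i * w)) : w = 1 ∨ w = cs.simple j ∨ w = cs.simple j * cs.simple i := by
  have hbraid : cs.simple j * cs.simple i * cs.simple j = cs.simple i * cs.simple j * cs.simple i := by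
    have h1 := cs.simple_mul_simple_pow i j
    rw [hM] at h1
    have h2 : (cs.simple i * cs.simple j) ^ 3 = cs.simple i * cs.simple j * cs.simple i *
        (cs.simple j * cs.simple i * cs.simple j) := by
      rw [pow_succ, pow_two]; group
    rw [h2] at h1
    have h3 : cs.simple j * cs.simple i * cs.simple j = (cs.simple i * cs.simple j * cs.simple i)⁻¹ :=
      (inv_eq_of_mul_eq_one_right h1).symm
    rw [h3, mul_inv_rev, mul_inv_rev, cs.inv_simple, cs.inv_simple, mul_assoc]
  -- a left descent in the residue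
  have hdes : ∀ v ∈ WJ cs {i, j}, v ≠ 1 → ∃ k ∈ ({i, j} : Set I), ℓ (cs.simple k * v) < ℓ v := by
    intro v hv hv1
    have h1 : v⁻¹ ≠ 1 := fun h => hv1 (inv_eq_one.1 h)
    obtain ⟨k, hk⟩ := cs.exists_rightDescent_of_ne_one h1
    have hk' : ℓ (v⁻¹ * cs.simple k) < ℓ v⁻¹ := hk
    refine ⟨k, F.descent_mem _ _ (inv_mem hv) k hk', ?_⟩
    have h2 := cs.length_inv (cs.simple k * v)
    rw [mul_inv_rev, cs.inv_simple] at h2
    rw [h2, cs.length_inv] at hk'
    exact hk'
  have hss : ∀ k, cs.simple k * cs.simple k = 1 := cs.simple_mul_simple_self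
  have hmem : ∀ k ∈ ({i, j} : Set I), ∀ v ∈ WJ cs {i, j}, cs.simple k * v ∈ WJ cs {i, j} := fun k hk v hv =>
    mul_mem (Tits.Exchange.simple_mem_WJ cs hk) hv
  by_cases h1 : w = 1
  · exact Or.inl h1
  right
  obtain ⟨k, hk, hkl⟩ := hdes w hw h1
  have hkj : k = j := by
    rcases hk with rfl | rfl
    · omega
    · rfl
  rw [hkj] at hkl hk
  set w1 := cs.simple j * w with hw1
  have e1 : w = cs.simple j * w1 := by rw [hw1, ← mul_assoc, hss, one_mul]
  have hw1m : w1 ∈ WJ cs {i, j} := hmem j (by simp) w hw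
  by_cases h2 : w1 = 1
  · left; rw [e1, h2, mul_one]
  right
  obtain ⟨k', hk', hkl'⟩ := hdes w1 hw1m h2
  have hki : k' = i := by
    rcases hk' with rfl | rfl
    · rfl
    · rw [← e1] at hkl'; omega
  rw [hki] at hkl' hk'
  set w2 := cs.simple i * w1 with hw2
  have e2 : w1 = cs.simple i * w2 := by rw [hw2, ← mul_assoc, hss, one_mul]
  have hw2m : w2 ∈ WJ cs {i, j} := hmem i (by simp) w1 hw1m
  by_cases h3 : w2 = 1
  · rw [e1, e2, h3, mul_one]
  exfalso
  obtain ⟨l, hl, hll⟩ := hdes w2 hw2m h3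
  have hlk : l = j := by
    rcases hl with rfl | rfl
    · rw [← e2] at hll; omega
    · rfl
  rw [hlk] at hll
  set w3 := cs.simple j * w2 with hw3
  have e3 : w2 = cs.simple j * w3 := by rw [hw3, ← mul_assoc, hss, one_mul]
  have e4 : cs.simple i * w = cs.simple j * cs.simple i * w3 := by
    rw [e1, e2, e3]
    calc cs.simple i * (cs.simple j * (cs.simple i * (cs.simple j * w3)))
        = cs.simple i * (cs.simple j * cs.simple i * cs.simple j) * w3 := by group
      _ = cs.simple i * (cs.simple i * cs.simple j * cs.simple i) * w3 := by rw [hbraid]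
      _ = (cs.simple i * cs.simple i) * (cs.simple j * cs.simple i) * w3 := by group
      _ = _ := by rw [hss, one_mul]
  have e5 := cs.length_mul_le (cs.simple j * cs.simple i) w3
  have e6 := cs.length_mul_le (cs.simple j) (cs.simple i)
  rw [cs.length_simple, cs.length_simple] at e6
  rw [e4] at hlt
  have l1 := cs.length_simple_mul w j
  have l2 := cs.length_simple_mul w1 i
  have l3 := cs.length_simple_mul w2 j
  omega

omit S in
/-- the reduced word `j i j` if `m ≥ 3` -/
theorem len_jij [F : OppRes.Cox cs] {i j : I} (hM : M i j = 3) : ℓ (cs.simple j * cs.simple i) = 2 ∧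
    ℓ (cs.simple j * cs.simple i * cs.simple j) = 3 ∧
    cs.simple j * cs.simple i * cs.simple j = cs.simple i * cs.simple j * cs.simple i ∧ i ≠ j := by
  have hbraid : cs.simple j * cs.simple i * cs.simple j = cs.simple i * cs.simple j * cs.simple i := by
    have h1 := cs.simple_mul_simple_pow i j
    rw [hM] at h1
    have h2 : (cs.simple i * cs.simple j) ^ 3 = cs.simple i * cs.simple j * cs.simple i *
        (cs.simple j * cs.simple i * cs.simple j) := by
      rw [pow_succ, pow_two]; group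
    rw [h2] at h1
    have h3 : cs.simple j * cs.simple i * cs.simple j = (cs.simple i * cs.simple j * cs.simple i)⁻¹ :=
      (inv_eq_of_mul_eq_one_right h1).symm
    rw [h3, mul_inv_rev, mul_inv_rev, cs.inv_simple, cs.inv_simple, mul_assoc]
  have hij : i ≠ j := by
    rintro rfl
    rw [M.diagonal] at hM
    omega
  have hne : cs.simple i ≠ cs.simple j := fun h => hij (F.inj h)
  have hss : ∀ k, cs.simple k * cs.simple k = 1 := cs.simple_mul_simple_self
  have h1 : ℓ (cs.simple j * cs.simple i) = 2 := by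
    rcases cs.length_mul_simple (cs.simple j) i with h | h
    · rw [h, cs.length_simple]
    · rw [cs.length_simple] at h
      exfalso
      have h2 : ℓ (cs.simple j * cs.simple i) = 0 := by omega
      rw [cs.length_eq_zero_iff, mul_eq_one_iff_eq_inv, cs.inv_simple] at h2
      exact hne h2.symm
  refine ⟨h1, ?_, hbraid, hij⟩
  rcases cs.length_mul_simple (cs.simple j * cs.simple i) j with h | h
  · rw [h, h1]
  · exfalso
    rw [h1] at h
    have h2 : ℓ (cs.simple j * cs.simple i * cs.simple j) = 1 := by omega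
    rw [cs.length_eq_one_iff] at h2
    obtain ⟨k, hk⟩ := h2
    -- `j i j = k` : a reflection of length one in the residue
    have h3 : cs.simple k ∈ WJ cs {i, j} := by
      rw [← hk]
      exact mul_mem (mul_mem (Tits.Exchange.simple_mem_WJ cs (by simp)) (Tits.Exchange.simple_mem_WJ cs (by simp)))
        (Tits.Exchange.simple_mem_WJ cs (by simp))
    have h4 : k ∈ ({i, j} : Set I) := F.descent_mem _ _ h3 k (by
      rw [hss, cs.length_one, cs.length_simple]; omega)
    rcases h4 with rfl | rfl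
    · -- `j i j = i` : `i` and `j` commute
      have h5 : cs.simple j * cs.simple k = cs.simple k * cs.simple j := by
        calc cs.simple j * cs.simple k = cs.simple j * cs.simple k * (cs.simple j * cs.simple j) := by
              rw [hss, mul_one]
          _ = (cs.simple j * cs.simple k * cs.simple j) * cs.simple j := by group
          _ = _ := by rw [hk]
      rw [h5, mul_assoc, hss, mul_one] at hbraid
      rw [h5] at hk
      have h6 : cs.simple k = cs.simple k * cs.simple j * cs.simple k := hbraid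
      have h7 : cs.simple j * cs.simple k = 1 := by
        have h8 : cs.simple k * (cs.simple j * cs.simple k) = cs.simple k * 1 := by
          rw [mul_one, ← mul_assoc]; exact h6.symm
        exact mul_left_cancel h8
      rw [h7, cs.length_one] at h1
      omega
    · -- `j i j = j` : `i j = 1`
      have h5 : cs.simple i * cs.simple k = 1 := by
        have h6 : cs.simple k * (cs.simple i * cs.simple k) = cs.simple k * 1 := by
          rw [mul_one, ← mul_assoc]; exact hk
        exact mul_left_cancel h6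
      rw [mul_eq_one_iff_eq_inv, cs.inv_simple] at h5
      exact hne h5

omit S in
/-- no closed galleries of type `j i j i` with only the second step allowed to stutter -/
theorem no_sq [F : OppRes.Cox cs] {i j : I} (hM : M i j = 3) {x0 x1 x2 x3 : C} (h01 : Δ.δ x0 x1 = cs.simple j)
    (h12 : x2 ∈ Δ.Pan i x1) (h23 : Δ.δ x2 x3 = cs.simple j) (h03 : Δ.δ x0 x3 = cs.simple i) : False := by
  obtain ⟨l2, l3, -, hij⟩ := len_jij (cs := cs) hM
  rcases h12 with rfl | h12
  · have h1 : x3 ∈ Δ.Pan j x0 := Δ.mem_Pan_trans (Δ.mem_Pan_of_δ h01) (Δ.mem_Pan_of_δ h23)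
    rcases h1 with rfl | h1
    · rw [Δ.δ_self] at h03
      have := congrArg cs.length h03
      rw [cs.length_simple, cs.length_one] at this
      omega
    · rw [h1] at h03
      exact hij (F.inj h03).symm
  · have h1 : Δ.δ x0 x2 = cs.simple j * cs.simple i := Δ.δ_mul_of h01 h12 (by
      rw [l2, cs.length_simple, cs.length_simple])
    have h2 : Δ.δ x0 x3 = cs.simple j * cs.simple i * cs.simple j := Δ.δ_mul_of h1 h23 (by
      rw [l3, l2, cs.length_simple])
    rw [h03] at h2
    have := congrArg cs.length h2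
    rw [l3, cs.length_simple] at this
    omega

/-- **The moved types are closed under simple bonds.** -/
theorem mv_of_m3 [F : OppRes.Cox cs] {i j : I} (hM : M i j = 3) {x : G} (h : Mv Δ i x) : Mv Δ j x := by
  by_contra hcon
  obtain ⟨l2, l3, hbraid, hij⟩ := len_jij (cs := cs) hM
  have l2' : ℓ (cs.simple i * cs.simple j) = 2 := by
    rw [← cs.length_inv, mul_inv_rev, cs.inv_simple, cs.inv_simple, l2]
  have l3' : ℓ (cs.simple i * cs.simple j * cs.simple i) = 3 := by rw [← hbraid, l3]
  have hss : ∀ k, cs.simple k * cs.simple k = 1 := cs.simple_mul_simple_self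
  obtain ⟨c, e, hc, he, hxe⟩ := h
  have hfix : ∀ {c d : C}, x • c = c → d ∈ Δ.Pan j c → x • d = d := fun h1 h2 => fix_of_not_mv hcon h1 h2
  -- chambers opposite `c` in the residue stay in their `i`-panel
  have hline : ∀ k, Δ.δ c k = cs.simple i * cs.simple j * cs.simple i → x • k ∈ Δ.Pan i k := by
    intro k hk
    have hxk : Δ.δ c (x • k) = cs.simple i * cs.simple j * cs.simple i := by
      rw [← hk, ← S.iso x c k, hc]
    -- positions of the chambers of the `i`-panels of `k`, `x k`
    have hpos : ∀ k', Δ.δ c k' = cs.simple i * cs.simple j * cs.simple i → ∀ z ∈ Δ.Pan i k',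
        Δ.δ c z = cs.simple i * cs.simple j * cs.simple i ∨ Δ.δ c z = cs.simple i * cs.simple j := by
      intro k' hk' z hz
      rcases hz with rfl | hz
      · left; exact hk'
      · rcases Δ.step c k' z i hz with h1 | h1
        · right; rw [h1, hk', mul_assoc _ (cs.simple i), hss, mul_one]
        · left; rw [h1, hk']
    -- the meeting point
    have hres : Δ.δ k (x • k) ∈ WJ cs {i, j} := by
      have h1 : k ∈ Δ.Res {i, j} c := by
        rw [mem_Res, hk]
        exact mul_mem (mul_mem (Tits.Exchange.simple_mem_WJ cs (by simp)) (Tits.Exchange.simple_mem_WJ cs (by simp)))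
          (Tits.Exchange.simple_mem_WJ cs (by simp))
      have h2 : x • k ∈ Δ.Res {i, j} c := by
        rw [mem_Res, hxk, ← hk]; exact h1
      exact Δ.δ_mem_of_mem_Res h1 h2
    obtain ⟨k1, hk1, k2, hk2, hk12⟩ : ∃ k1 ∈ Δ.Pan i k, ∃ k2 ∈ Δ.Pan i (x • k), k2 ∈ Δ.Pan j k1 := by
      obtain ⟨k1, hk1⟩ := Δ.exists_isProj {i} k (x • k)
      have hk1' : k1 ∈ Δ.Pan i k := by rw [Pan_eq_Res]; exact hk1.mem
      have h1 := (isMinR_iff cs).1 hk1.isMinR i rfl
      have h2 : ℓ (Δ.δ k1 (x • k)) < ℓ (cs.simple i * Δ.δ k1 (x • k)) := by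
        rw [← cs.length_inv, ← cs.length_inv (Δ.δ (x • k) k1 * _), mul_inv_rev, cs.inv_simple,
          ← Δ.symm (x • k) k1] at h1
        exact h1
      have h3 : Δ.δ k1 (x • k) ∈ WJ cs {i, j} := by
        have h4 : k1 ∈ Δ.Res {i, j} k := Δ.Pan_subset_Res (by simp) k hk1'
        exact Δ.δ_mem_of_mem_Res h4 hres
      rcases cases_m3 S hM h3 h2 with h4 | h4 | h4
      · exact ⟨k1, hk1', x • k, Δ.self_mem_Pan i _, by rw [Δ.eq_of_δ_eq_one h4]; exact Δ.self_mem_Pan j _⟩
      · exact ⟨k1, hk1', x • k, Δ.self_mem_Pan i _, Δ.mem_Pan_of_δ h4⟩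
      · obtain ⟨k2, h5, h6⟩ := Δ.exists_between h4 (by rw [l2, cs.length_simple, cs.length_simple])
        exact ⟨k1, hk1', k2, Δ.mem_Pan_symm (Δ.mem_Pan_of_δ h6), Δ.mem_Pan_of_δ h5⟩
    -- the chamber `k0` of the `j`-panel of `k1`, joined to a fixed chamber `f`
    obtain ⟨f, hf, hfc, k0, hfk, hk01⟩ : ∃ f, x • f = f ∧ (ℓ (Δ.δ c f) ≤ 1) ∧ ∃ k0, Δ.δ f k0 = cs.simple i ∧
        Δ.δ k0 k1 = cs.simple j := by
      rcases hpos k hk k1 hk1 with h1 | h1
      · rw [← hbraid] at h1
        obtain ⟨f, hf1, hf2⟩ := Δ.exists_between (v := cs.simple j) (w := cs.simple i * cs.simple j)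
          (by rw [h1, mul_assoc]) (by rw [← mul_assoc, l3, l2', cs.length_simple])
        obtain ⟨k0, hk1, hk2⟩ := Δ.exists_between hf2 (by rw [l2', cs.length_simple, cs.length_simple])
        exact ⟨f, hfix hc (Δ.mem_Pan_of_δ hf1), by rw [hf1, cs.length_simple], k0, hk1, hk2⟩
      · obtain ⟨k0, hk1, hk2⟩ := Δ.exists_between h1 (by rw [l2', cs.length_simple, cs.length_simple])
        exact ⟨c, hc, by rw [Δ.δ_self, cs.length_one]; omega, k0, hk1, hk2⟩
    -- `x` fixes `k0`
    have hk0 : x • k0 = k0 := by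
      by_contra hne
      have h1 : Δ.δ k0 (x • k0) = cs.simple i := by
        refine Δ.δ_eq_of_mem_Pan (x := f) (Δ.mem_Pan_of_δ hfk) ?_ (Ne.symm hne)
        have := smul_mem_Pan S (g := x) (Δ.mem_Pan_of_δ hfk)
        rwa [hf] at this
      have h2 : k2 ≠ k0 := by
        rintro rfl
        have h3 : f ∈ Δ.Pan i (x • k) := Δ.mem_Pan_trans hk2 (Δ.mem_Pan_symm (Δ.mem_Pan_of_δ hfk))
        rcases hpos _ hxk f h3 with h4 | h4
        · rw [h4, l3'] at hfc; omega
        · rw [h4, l2'] at hfc; omega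
      have h3 : Δ.δ k0 k2 = cs.simple j := by
        refine Δ.δ_eq_of_mem_Pan (x := k1) (Δ.mem_Pan_symm (Δ.mem_Pan_of_δ hk01)) hk12 (Ne.symm h2)
      have h4 : x • k1 ∈ Δ.Pan i k2 := by
        rw [Δ.Pan_eq_of_mem hk2]
        exact smul_mem_Pan S hk1
      have h5 : Δ.δ (x • k1) (x • k0) = cs.simple j := by
        rw [S.iso]; exact Δ.δ_symm_simple hk01
      exact no_sq hM h3 h4 h5 h1
    -- so `k1` is fixed
    have hk1f : x • k1 = k1 := hfix hk0 (Δ.mem_Pan_of_δ hk01)
    have h1 := smul_mem_Pan S (g := x) hk1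
    rw [hk1f] at h1
    have h2 := Δ.Pan_eq_of_mem h1
    have h3 : x • k ∈ Δ.Pan i (x • k) := Δ.self_mem_Pan i _
    rw [← h2, Δ.Pan_eq_of_mem hk1] at h3
    exact h3
  -- final contradiction
  obtain ⟨e', he', -⟩ := Δ.exists_step e e j
  have hee' : Δ.δ e e' = cs.simple j := Δ.δ_symm_simple (by rw [Δ.symm, he', cs.inv_simple])
  have hce' : Δ.δ c e' = cs.simple i * cs.simple j := Δ.δ_mul_of he hee' (by
    rw [l2', cs.length_simple, cs.length_simple])
  obtain ⟨k, hk, -⟩ := Δ.exists_step e' e' i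
  have hek : Δ.δ e' k = cs.simple i := Δ.δ_symm_simple (by rw [Δ.symm, hk, cs.inv_simple])
  have hck : Δ.δ c k = cs.simple i * cs.simple j * cs.simple i := Δ.δ_mul_of hce' hek (by
    rw [l3', l2', cs.length_simple])
  have h1 := hline k hck
  have h2 : x • e' ∈ Δ.Pan i e' := by
    have h3 := smul_mem_Pan S (g := x) (Δ.mem_Pan_symm (Δ.mem_Pan_of_δ hek))
    rw [Δ.Pan_eq_of_mem h1, Δ.Pan_eq_of_mem (Δ.mem_Pan_of_δ hek)] at h3
    exact h3
  have h3 : Δ.δ e (x • e) = cs.simple i := by
    refine Δ.δ_eq_of_mem_Pan (x := c) (Δ.mem_Pan_of_δ he) ?_ (Ne.symm hxe)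
    have := smul_mem_Pan S (g := x) (Δ.mem_Pan_of_δ he)
    rwa [hc] at this
  have h4 : Δ.δ (x • e') (x • e) = cs.simple j := by
    rw [S.iso]; exact Δ.δ_symm_simple hee'
  exact no_sq hM hee' h2 h4 h3

end Sys

end Cfsg.Agent.H197.Cls
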