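import Mathlib

/-!
# S2451, helper197: the rank one lemma

`R` a finite set, `U D` (`D ∈ R`) groups of permutations, `U D` fixes `D` and is regular on the rest, the `U D` are permuted
by conjugation (a Moufang set). `α`, `ψ` permutations, `α` without fixed points, such that each `α⁻¹ * (h * ψ * h⁻¹)`,
`h` in the group generated by the `U D`, lies in some `U D`. Then `ψ` has exactly one fixed point.
-/

set_option autoImplicit false
set_option linter.unusedSectionVars false

namespace Cfsg.Agent.H197.Cls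

theorem inv_ap {R : Type*} (g : Equiv.Perm R) (x : R) : g⁻¹ (g x) = x := g.symm_apply_apply x

theorem ap_inv {R : Type*} (g : Equiv.Perm R) (x : R) : g (g⁻¹ x) = x := g.apply_symm_apply x

/-- a Moufang set of permutations -/
structure MouSet {R : Type*} (U : R → Subgroup (Equiv.Perm R)) : Prop where
  fix : ∀ D, ∀ u ∈ U D, u D = D
  move : ∀ D E F, E ≠ D → F ≠ D → ∃ u ∈ U D, u E = F
  semi : ∀ D E, E ≠ D → ∀ u ∈ U D, u E = E → u = 1
  conj : ∀ D E, ∀ g ∈ U E, ∀ u ∈ U D, g * u * g⁻¹ ∈ U (g D)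

namespace MouSet

variable {R : Type*} {U : R → Subgroup (Equiv.Perm R)} (h : MouSet U)

include h

theorem conjL {g : Equiv.Perm R} (hg : g ∈ ⨆ D, U D) : ∀ D, ∀ u ∈ U D, g * u * g⁻¹ ∈ U (g D) := by
  induction hg using Subgroup.iSup_induction' with
  | hp i x hx => exact fun D u hu => h.conj D i x hx u hu
  | h1 => intro D u hu; simpa using hu
  | hmul x y hx hy ihx ihy =>
    intro D u hu
    have h1 := ihx _ _ (ihy D u hu)
    have e : x * (y * u * y⁻¹) * x⁻¹ = x * y * u * (x * y)⁻¹ := by group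
    rwa [e] at h1

theorem two [Finite R] (h3 : 3 ≤ Nat.card R) {D T D' T' : R} (h1 : D ≠ T) (h2 : D' ≠ T') :
    ∃ g ∈ ⨆ D, U D, g D = D' ∧ g T = T' := by
  classical
  have : Fintype R := Fintype.ofFinite R
  obtain ⟨E, hE⟩ : ∃ E, E ∉ ({D, D'} : Finset R) := by
    by_contra hcon
    push Not at hcon
    have h4 : (Finset.univ : Finset R) ⊆ {D, D'} := fun x _ => hcon x
    have h5 := Finset.card_le_card h4
    have h6 := Finset.card_le_two (a := D) (b := D')
    rw [Finset.card_univ, ← Nat.card_eq_fintype_card] at h5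
    omega
  simp only [Finset.mem_insert, Finset.mem_singleton, not_or] at hE
  obtain ⟨u, hu, hu1⟩ := h.move E D D' (Ne.symm hE.1) (Ne.symm hE.2)
  have h4 : u T ≠ D' := by
    rw [← hu1]
    exact fun h5 => h1 (u.injective h5).symm
  obtain ⟨v, hv, hv1⟩ := h.move D' (u T) T' h4 (Ne.symm h2)
  refine ⟨v * u, mul_mem (Subgroup.mem_iSup_of_mem D' hv) (Subgroup.mem_iSup_of_mem E hu), ?_, ?_⟩
  · rw [Equiv.Perm.mul_apply, hu1, h.fix D' v hv]
  · rw [Equiv.Perm.mul_apply, hv1]

theorem card_U [Finite R] (D : R) (h3 : 3 ≤ Nat.card R) : Nat.card (U D) + 1 = Nat.card R := by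
  classical
  have : Fintype R := Fintype.ofFinite R
  obtain ⟨E, hE⟩ : ∃ E, E ≠ D := by
    by_contra hcon
    push Not at hcon
    have h4 : (Finset.univ : Finset R) ⊆ {D} := fun x _ => by simp [hcon x]
    have h5 := Finset.card_le_card h4
    rw [Finset.card_univ, ← Nat.card_eq_fintype_card, Finset.card_singleton] at h5
    omega
  have e : U D ≃ {F : R // F ≠ D} := by
    refine Equiv.ofBijective (fun u => ⟨u.1 E, fun h1 => hE ?_⟩) ⟨?_, ?_⟩
    · have h2 := h.fix D u.1 u.2
      exact u.1.injective (h1.trans h2.symm)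
    · intro u v huv
      have h1 : u.1 E = v.1 E := congrArg Subtype.val huv
      have h2 : (v.1⁻¹ * u.1) E = E := by
        rw [Equiv.Perm.mul_apply, h1, inv_ap]
      have h4 := h.semi D E hE _ (mul_mem (inv_mem v.2) u.2) h2
      rw [inv_mul_eq_one] at h4
      exact Subtype.ext h4.symm
    · rintro ⟨F, hF⟩
      obtain ⟨u, hu, hu1⟩ := h.move D E F hE hF
      exact ⟨⟨u, hu⟩, Subtype.ext hu1⟩
  rw [Nat.card_congr e, Nat.card_eq_fintype_card, Nat.card_eq_fintype_card, Fintype.card_subtype_compl,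
    Fintype.card_subtype_eq]
  have : 0 < Fintype.card R := Fintype.card_pos_iff.2 ⟨D⟩
  omega

end MouSet

/-- **The rank one lemma.** -/
theorem rankOne {R : Type*} [Finite R] {U : R → Subgroup (Equiv.Perm R)} (hU : MouSet U) (h3 : 3 ≤ Nat.card R)
    {α ψ : Equiv.Perm R} (hα : ∀ D, α D ≠ D)
    (H : ∀ h ∈ ⨆ D, U D, ∃ D, α⁻¹ * (h * ψ * h⁻¹) ∈ U D) : ∃! D, ψ D = D := by
  classical
  have : Fintype R := Fintype.ofFinite R
  have hn : Nat.card R = Fintype.card R := Nat.card_eq_fintype_card
  set L : Subgroup (Equiv.Perm R) := ⨆ D, U D with hL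
  let Ψ : Finset (Equiv.Perm R) := Finset.univ.filter fun σ => ∃ h ∈ L, σ = h * ψ * h⁻¹
  have hΨ : ∀ σ, σ ∈ Ψ ↔ ∃ h ∈ L, σ = h * ψ * h⁻¹ := fun σ => by simp [Ψ]
  have hψΨ : ψ ∈ Ψ := (hΨ _).2 ⟨1, one_mem _, by group⟩
  have hconjΨ : ∀ g ∈ L, ∀ σ ∈ Ψ, g * σ * g⁻¹ ∈ Ψ := by
    intro g hg σ hσ
    obtain ⟨k, hk, rfl⟩ := (hΨ _).1 hσ
    exact (hΨ _).2 ⟨g * k, mul_mem hg hk, by group⟩
  let κ : R → R → ℕ := fun D T => (Ψ.filter fun σ => σ D = T).card
  have hκ : ∀ D T D' T', D ≠ T → D' ≠ T' → κ D T = κ D' T' := by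
    intro D T D' T' h1 h2
    obtain ⟨g, hg, hg1, hg2⟩ := hU.two h3 h1 h2
    refine Finset.card_nbij' (fun σ => g * σ * g⁻¹) (fun σ => g⁻¹ * σ * g) ?_ ?_ ?_ ?_
    · intro σ hσ
      simp only [Finset.coe_filter, Set.mem_ofPred_eq] at hσ ⊢
      refine ⟨hconjΨ g hg σ hσ.1, ?_⟩
      rw [Equiv.Perm.mul_apply, Equiv.Perm.mul_apply, ← hg1, inv_ap, hσ.2, hg2]
    · intro σ hσ
      simp only [Finset.coe_filter, Set.mem_ofPred_eq] at hσ ⊢
      have h4 := hconjΨ g⁻¹ (inv_mem hg) σ hσ.1
      rw [inv_inv] at h4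
      refine ⟨h4, ?_⟩
      rw [Equiv.Perm.mul_apply, Equiv.Perm.mul_apply, hg1, hσ.2, ← hg2, inv_ap]
    · intro σ _
      change g⁻¹ * (g * σ * g⁻¹) * g = σ
      group
    · intro σ _
      change g * (g⁻¹ * σ * g) * g⁻¹ = σ
      group
  -- two different points
  obtain ⟨D0, T0, hDT⟩ : ∃ D T : R, D ≠ T := by
    have : Nontrivial R := by
      rw [← Fintype.one_lt_card_iff_nontrivial, ← hn]; omega
    exact exists_pair_ne R
  set k := κ D0 T0 with hk
  -- the first sum
  have hsum1 : ∑ σ ∈ Ψ, (Finset.univ.filter fun D => σ D = α D).card = Fintype.card R * k := by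
    have h1 : ∑ σ ∈ Ψ, (Finset.univ.filter fun D => σ D = α D).card =
        ∑ D : R, (Ψ.filter fun σ => σ D = α D).card :=
      Finset.sum_card_bipartiteAbove_eq_sum_card_bipartiteBelow (s := Ψ) (t := (Finset.univ : Finset R))
        (fun (σ : Equiv.Perm R) (D : R) => σ D = α D)
    rw [h1, Finset.sum_congr rfl (fun D _ => hκ D (α D) D0 T0 (Ne.symm (hα D)) hDT), Finset.sum_const,
      Finset.card_univ, smul_eq_mul]
  -- the second sum
  have hsum2 : ∑ σ ∈ Ψ, (Finset.univ.filter fun D => σ D ≠ D).card = Fintype.card R * ((Fintype.card R - 1) * k) := by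
    have h1 : ∑ σ ∈ Ψ, (Finset.univ.filter fun D => σ D ≠ D).card =
        ∑ D : R, (Ψ.filter fun σ => σ D ≠ D).card :=
      Finset.sum_card_bipartiteAbove_eq_sum_card_bipartiteBelow (s := Ψ) (t := (Finset.univ : Finset R))
        (fun (σ : Equiv.Perm R) (D : R) => σ D ≠ D)
    have h2 : ∀ D : R, (Ψ.filter fun σ => σ D ≠ D).card = (Fintype.card R - 1) * k := by
      intro D
      rw [Finset.card_eq_sum_card_fiberwise (f := fun σ : Equiv.Perm R => σ D) (t := Finset.univ.erase D)
        (fun σ hσ => by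
          simp only [Finset.coe_filter, Set.mem_ofPred_eq] at hσ
          simp [hσ.2])]
      rw [Finset.sum_congr rfl (g := fun _ => k) (fun T hT => ?_), Finset.sum_const,
        Finset.card_erase_of_mem (Finset.mem_univ D), Finset.card_univ, smul_eq_mul]
      have hT' : T ≠ D := by simpa using hT
      rw [Finset.filter_filter, hk, ← hκ D T D0 T0 (Ne.symm hT') hDT]
      refine congrArg Finset.card (Finset.filter_congr fun σ _ => ?_)
      constructor
      · exact fun h => h.2
      · exact fun h => ⟨by rw [h]; exact hT', h⟩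
    rw [h1, Finset.sum_congr rfl (fun D _ => h2 D), Finset.sum_const, Finset.card_univ, smul_eq_mul]
  -- the number of moved points is constant
  set m := (Finset.univ.filter fun D => ψ D ≠ D).card with hm
  have hmconst : ∀ σ ∈ Ψ, (Finset.univ.filter fun D => σ D ≠ D).card = m := by
    intro σ hσ
    obtain ⟨g, -, rfl⟩ := (hΨ _).1 hσ
    refine Finset.card_nbij' (fun D => g⁻¹ D) (fun D => g D) ?_ ?_ ?_ ?_
    · intro D hD
      simp only [Finset.coe_filter, Set.mem_ofPred_eq, Finset.mem_univ, true_and] at hD ⊢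
      intro h4
      apply hD
      rw [Equiv.Perm.mul_apply, Equiv.Perm.mul_apply, h4, ap_inv]
    · intro D hD
      simp only [Finset.coe_filter, Set.mem_ofPred_eq, Finset.mem_univ, true_and] at hD ⊢
      intro h4
      apply hD
      rw [Equiv.Perm.mul_apply, Equiv.Perm.mul_apply, inv_ap] at h4
      exact g.injective h4
    · intro D _
      exact ap_inv g D
    · intro D _
      exact inv_ap g D
  rw [Finset.sum_congr rfl hmconst, Finset.sum_const, smul_eq_mul] at hsum2
  have hcard : 0 < Ψ.card := Finset.card_pos.2 ⟨ψ, hψΨ⟩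
  -- the condition for the elements of `Ψ`
  have H' : ∀ σ ∈ Ψ, ∃ D, α⁻¹ * σ ∈ U D := by
    intro σ hσ
    obtain ⟨g, hg, rfl⟩ := (hΨ _).1 hσ
    exact H g hg
  have hone : ∀ σ ∈ Ψ, σ ≠ α → (Finset.univ.filter fun D => σ D = α D).card = 1 := by
    intro σ hσ hne
    obtain ⟨D, hD⟩ := H' σ hσ
    rw [Finset.card_eq_one]
    refine ⟨D, ?_⟩
    ext E
    simp only [Finset.mem_filter, Finset.mem_univ, true_and, Finset.mem_singleton]
    constructor
    · intro h4
      by_contra hED
      have h5 := hU.semi D E hED _ hD (by rw [Equiv.Perm.mul_apply, h4, inv_ap])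
      rw [inv_mul_eq_one] at h5
      exact hne h5.symm
    · rintro rfl
      have h5 := hU.fix E _ hD
      rw [Equiv.Perm.mul_apply, Equiv.Perm.inv_eq_iff_eq] at h5
      exact h5
  have hkpos : 0 < k := by
    by_contra hcon
    have hk0 : k = 0 := by omega
    rw [hk0, Nat.mul_zero, Nat.mul_zero, Nat.mul_eq_zero] at hsum2
    have hm0 : m = 0 := by omega
    obtain ⟨D, hD⟩ := H' ψ hψΨ
    have h5 := hU.fix D _ hD
    rw [Equiv.Perm.mul_apply, Equiv.Perm.inv_eq_iff_eq] at h5
    rw [hm, Finset.card_eq_zero, Finset.filter_eq_empty_iff] at hm0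
    have h6 := hm0 (Finset.mem_univ D)
    push Not at h6
    rw [h6] at h5
    exact hα D h5.symm
  have hn3 : 3 ≤ Fintype.card R := by rw [← hn]; exact h3
  by_cases hf : ∃ D, ψ D = D
  · -- `f ≥ 1`
    have hne : ∀ σ ∈ Ψ, σ ≠ α := by
      rintro σ hσ rfl
      obtain ⟨g, -, hg⟩ := (hΨ _).1 hσ
      obtain ⟨D, hD⟩ := hf
      apply hα (g D)
      rw [hg, Equiv.Perm.mul_apply, Equiv.Perm.mul_apply, inv_ap, hD]
    rw [Finset.sum_congr rfl (fun σ hσ => hone σ hσ (hne σ hσ)), Finset.sum_const, smul_eq_mul, mul_one] at hsum1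
    rw [hsum1] at hsum2
    have hm1 : m = Fintype.card R - 1 := by
      have h4 : (Fintype.card R * k) * m = (Fintype.card R * k) * (Fintype.card R - 1) := by
        rw [hsum2]; ring
      exact Nat.eq_of_mul_eq_mul_left (Nat.mul_pos (by omega) hkpos) h4
    obtain ⟨D, hD⟩ := hf
    refine ⟨D, hD, fun E hE => ?_⟩
    by_contra hne'
    have h4 : (Finset.univ.filter fun D => ψ D ≠ D) ⊆ (Finset.univ.erase D).erase E := by
      intro X hX
      simp only [Finset.mem_filter, Finset.mem_univ, true_and] at hX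
      simp only [Finset.mem_erase, Finset.mem_univ, and_true, ne_eq]
      refine ⟨?_, ?_⟩
      · rintro rfl; exact hX hE
      · rintro rfl; exact hX hD
    have h5 := Finset.card_le_card h4
    rw [Finset.card_erase_of_mem (by simp [hne']), Finset.card_erase_of_mem (Finset.mem_univ D), Finset.card_univ,
      ← hm] at h5
    omega
  · -- `f = 0`
    exfalso
    push Not at hf
    have hmn : m = Fintype.card R := by
      rw [hm, Finset.filter_true_of_mem (fun D _ => hf D), Finset.card_univ]
    rw [hmn] at hsum2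
    have hΨc : Ψ.card = (Fintype.card R - 1) * k := by
      have h4 : Fintype.card R * Ψ.card = Fintype.card R * ((Fintype.card R - 1) * k) := by
        rw [mul_comm, hsum2]
      exact Nat.eq_of_mul_eq_mul_left (by omega) h4
    have hαΨ : α ∈ Ψ := by
      by_contra hcon
      rw [Finset.sum_congr rfl (fun σ hσ => hone σ hσ (fun h4 => hcon (h4 ▸ hσ))), Finset.sum_const, smul_eq_mul,
        mul_one, hΨc] at hsum1
      have h5 := Nat.eq_of_mul_eq_mul_right hkpos hsum1
      omega
    -- `k = q`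
    have hkq : k = Fintype.card R - 1 := by
      rw [← Finset.add_sum_erase _ _ hαΨ] at hsum1
      have h4 : (Finset.univ.filter fun D => α D = α D).card = Fintype.card R := by
        rw [Finset.filter_true_of_mem (fun _ _ => rfl), Finset.card_univ]
      rw [h4, Finset.sum_congr rfl (fun σ hσ => hone σ (Finset.mem_of_mem_erase hσ) (Finset.ne_of_mem_erase hσ)),
        Finset.sum_const, smul_eq_mul, mul_one, Finset.card_erase_of_mem hαΨ, hΨc] at hsum1
      obtain ⟨n', hn'⟩ : ∃ n', Fintype.card R = n' + 1 := ⟨Fintype.card R - 1, by omega⟩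
      rw [hn'] at hsum1 ⊢
      simp only [Nat.add_sub_cancel] at hsum1 ⊢
      have h5 : 1 ≤ n' * k := Nat.mul_pos (by omega) hkpos
      have h6 : (n' + 1) * k = n' * k + k := by ring
      omega
    -- `α u ∈ Ψ`
    have hmemU : ∀ D, ∀ u ∈ U D, α * u ∈ Ψ := by
      intro D u hu
      let A : Finset (Equiv.Perm R) := (Ψ.filter fun σ => σ D = α D).image fun σ => α⁻¹ * σ
      let B : Finset (Equiv.Perm R) := Finset.univ.filter fun v => v ∈ U D
      have hAB : A ⊆ B := by
        intro v hv
        simp only [A, Finset.mem_image, Finset.mem_filter] at hv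
        obtain ⟨σ, ⟨hσ, hσD⟩, rfl⟩ := hv
        simp only [B, Finset.mem_filter, Finset.mem_univ, true_and]
        obtain ⟨E, hE⟩ := H' σ hσ
        by_cases hDE : D = E
        · rw [hDE]; exact hE
        · have h5 := hU.semi E D hDE _ hE (by rw [Equiv.Perm.mul_apply, hσD, inv_ap])
          rw [h5]; exact one_mem _
      have hAc : A.card = k := by
        rw [Finset.card_image_of_injective _ (mul_right_injective _), hk]
        exact hκ D (α D) D0 T0 (Ne.symm (hα D)) hDT
      have hBc : B.card = Fintype.card R - 1 := by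
        have h4 := hU.card_U D h3
        have h5 : B.card = Nat.card (U D) := by
          rw [Nat.card_eq_fintype_card]
          exact (Fintype.card_subtype (fun v => v ∈ U D)).symm
        rw [h5]
        omega
      have hEq := Finset.eq_of_subset_of_card_le hAB (by rw [hAc, hBc, hkq])
      have h6 : u ∈ A := by rw [hEq]; simp [B, hu]
      simp only [A, Finset.mem_image, Finset.mem_filter] at h6
      obtain ⟨σ, ⟨hσ, -⟩, rfl⟩ := h6
      rw [mul_inv_cancel_left]
      exact hσ
    -- products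
    have hprod : ∀ D E, ∀ u ∈ U D, ∀ w ∈ U E, ∃ X, u * w ∈ U X := by
      intro D E u hu w hw
      obtain ⟨h0, hh0, e0⟩ := (hΨ _).1 hαΨ
      obtain ⟨h1, hh1, e1⟩ := (hΨ _).1 (hmemU D u⁻¹ (inv_mem hu))
      obtain ⟨h2, hh2, e2⟩ := (hΨ _).1 (hmemU E w hw)
      have hg : h1 * h0⁻¹ ∈ L := mul_mem hh1 (inv_mem hh0)
      set g := h1 * h0⁻¹ with hgdef
      have e3 : α * u⁻¹ = g * α * g⁻¹ := by
        rw [e1]
        nth_rewrite 1 [e0]
        rw [hgdef]; group
      obtain ⟨X, hX⟩ := H (g⁻¹ * h2) (mul_mem (inv_mem hg) hh2)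
      refine ⟨g X, ?_⟩
      have h5 := hU.conjL hg X _ hX
      have e4 : g * (α⁻¹ * (g⁻¹ * h2 * ψ * (g⁻¹ * h2)⁻¹)) * g⁻¹ = (g * α * g⁻¹)⁻¹ * (h2 * ψ * h2⁻¹) := by group
      rw [e4, ← e3, ← e2] at h5
      have e5 : (α * u⁻¹)⁻¹ * (α * w) = u * w := by group
      rwa [e5] at h5
    -- the final contradiction
    obtain ⟨u, hu, hu1⟩ : ∃ u ∈ U D0, u ≠ 1 := by
      by_contra hcon
      push Not at hcon
      have h4 : Nat.card (U D0) = 1 := by
        rw [Subgroup.card_eq_one, Subgroup.eq_bot_iff_forall]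
        exact hcon
      have h5 := hU.card_U D0 h3
      omega
    have huT : u T0 ≠ T0 := fun h4 => hu1 (hU.semi D0 T0 (Ne.symm hDT) u hu h4)
    have huD : u T0 ≠ D0 := fun h4 => hDT ((u.injective (h4.trans (hU.fix D0 u hu).symm)).symm)
    let B : Finset (Equiv.Perm R) := (Finset.univ.filter fun v => v ∈ U T0).erase 1
    have hBc : B.card = Fintype.card R - 2 := by
      have h4 := hU.card_U T0 h3
      have h5 : (Finset.univ.filter fun v => v ∈ U T0).card = Nat.card (U T0) := by
        rw [Nat.card_eq_fintype_card]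
        exact (Fintype.card_subtype (fun v => v ∈ U T0)).symm
      rw [Finset.card_erase_of_mem (by simp), h5]
      omega
    have hF : ∀ w ∈ B, ∃ F, u (w F) = F ∧ F ≠ D0 ∧ F ≠ T0 ∧ F ≠ u T0 := by
      intro w hw
      simp only [B, Finset.mem_erase, Finset.mem_filter, Finset.mem_univ, true_and] at hw
      obtain ⟨X, hX⟩ := hprod D0 T0 u hu w hw.2
      have h5 := hU.fix X _ hX
      rw [Equiv.Perm.mul_apply] at h5
      refine ⟨X, h5, ?_, ?_, ?_⟩
      · rintro rfl
        have h6 : w X = X := by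
          apply u.injective
          rw [h5, hU.fix X u hu]
        exact hw.1 (hU.semi T0 X hDT w hw.2 h6)
      · rintro rfl
        rw [hU.fix X w hw.2] at h5
        exact huT h5
      · rintro rfl
        have h6 := u.injective h5
        have h7 : w (u T0) = w T0 := by rw [h6, hU.fix T0 w hw.2]
        exact huT (w.injective h7)
    have : Nonempty R := ⟨D0⟩
    choose! f hf1 hf2 hf3 hf4 using hF
    have hinj : Set.InjOn f (B : Set (Equiv.Perm R)) := by
      intro w hw w' hw' hww
      have h5 := hf1 w hw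
      have h6 := hf1 w' hw'
      rw [← hww] at h6
      have h7 : w (f w) = w' (f w) := u.injective (h5.trans h6.symm)
      have hw1 : w ∈ U T0 := by
        have := hw
        simp only [B, Finset.coe_erase, Finset.coe_filter, Finset.mem_univ, true_and, Set.mem_sdiff,
          Set.mem_ofPred_eq] at this
        exact this.1
      have hw2 : w' ∈ U T0 := by
        have := hw'
        simp only [B, Finset.coe_erase, Finset.coe_filter, Finset.mem_univ, true_and, Set.mem_sdiff,
          Set.mem_ofPred_eq] at this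
        exact this.1
      have h8 := hU.semi T0 (f w) (hf3 w hw) _ (mul_mem (inv_mem hw2) hw1)
        (by rw [Equiv.Perm.mul_apply, h7, inv_ap])
      rw [inv_mul_eq_one] at h8
      exact h8.symm
    have hle : B.card ≤ (((Finset.univ.erase D0).erase T0).erase (u T0)).card := by
      refine Finset.card_le_card_of_injOn f ?_ hinj
      intro w hw
      have hw' : w ∈ B := hw
      simp only [Finset.coe_erase, Finset.coe_univ, Set.mem_sdiff, Set.mem_univ, Set.mem_singleton_iff, true_and]
      exact ⟨⟨hf2 w hw', hf3 w hw'⟩, hf4 w hw'⟩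
    have c1 : (((Finset.univ.erase D0).erase T0).erase (u T0)).card = Fintype.card R - 1 - 1 - 1 := by
      rw [Finset.card_erase_of_mem (by
        rw [Finset.mem_erase, Finset.mem_erase]; exact ⟨huT, huD, Finset.mem_univ _⟩),
        Finset.card_erase_of_mem (by rw [Finset.mem_erase]; exact ⟨Ne.symm hDT, Finset.mem_univ _⟩),
        Finset.card_erase_of_mem (Finset.mem_univ D0), Finset.card_univ]
    rw [hBc, c1] at hle
    omega

end Cfsg.Agent.H197.Cls
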