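import Mathlib
import Cfsg.Agent.H197.Cls.DisW
import Cfsg.Agent.H197.Cls.RankOne

/-!
# S2451, helper197: the roles

`v ∈ Dis Δ a b`, `s_i v = v s_i < v`, `v s_i ∉ Dis Δ a b`. Then one of `a⁻¹`, `b` has no chamber of displacement `v s_i`
(`RoleE`), and the other one has exactly one such chamber in each `i`-panel at the position `{v, v s_i}` (`RoleO`).
-/

set_option autoImplicit false
set_option linter.unusedSectionVars false

open scoped Pointwise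

namespace Cfsg.Agent.H197.Cls

open Cfsg.Agent.Tits.Core Cfsg.Agent.Tits.Core.Bldg Cfsg.Agent.Tits.Exchange Cfsg.Agent.Tits Cfsg.Agent.FixBN

variable {I : Type*} {M : CoxeterMatrix I} {W : Type*} [Group W] {cs : CoxeterSystem M W} {C : Type*}

local prefix:100 "ℓ" => cs.length

/-- parallel panels: `x0`, `y0` correspond to each other -/
structure PP (Δ : Bldg cs C) (i : I) (x0 y0 : C) : Prop where
  lt : ℓ (Δ.δ x0 y0) < ℓ (Δ.δ x0 y0 * cs.simple i)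
  comm : cs.simple i * Δ.δ x0 y0 = Δ.δ x0 y0 * cs.simple i

namespace PP

variable {Δ : Bldg cs C} {i : I} {x0 y0 : C} (h : PP Δ i x0 y0)

include h

theorem swap : PP Δ i y0 x0 := by
  have e : Δ.δ y0 x0 = (Δ.δ x0 y0)⁻¹ := Δ.symm x0 y0
  refine ⟨?_, ?_⟩
  · have h1 := h.lt
    rw [← h.comm] at h1
    rw [e, cs.length_inv, ← cs.length_inv (_ * cs.simple i), mul_inv_rev, inv_inv, cs.inv_simple]
    exact h1
  · have h2 := congrArg (fun z => z⁻¹) h.comm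
    simp only [mul_inv_rev, cs.inv_simple] at h2
    rw [e]
    exact h2.symm

theorem ne_self : Δ.δ x0 y0 * cs.simple i ≠ Δ.δ x0 y0 := by
  intro h1
  have h2 := h.lt
  rw [h1] at h2
  omega

theorem ex {D : C} (hD : D ∈ Δ.Pan i x0) : ∃ T ∈ Δ.Pan i y0, Δ.δ D T = Δ.δ x0 y0 := by
  rcases eq_or_ne D x0 with rfl | hne
  · exact ⟨y0, Δ.self_mem_Pan i y0, rfl⟩
  · have h1 : Δ.δ D y0 = cs.simple i * Δ.δ x0 y0 :=
      Δ.step_lt_left (Δ.δ_eq_of_mem_Pan hD (Δ.self_mem_Pan i x0) hne) (by rw [h.comm]; exact h.lt)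
    obtain ⟨z, hz, hz'⟩ := Δ.exists_step D y0 i
    refine ⟨z, Δ.mem_Pan_of_δ hz, ?_⟩
    rw [hz', h1, h.comm, mul_assoc, cs.simple_mul_simple_self, mul_one]

theorem delta {D T T' : C} (hT : T ∈ Δ.Pan i y0) (hT' : T' ∈ Δ.Pan i y0) (hd : Δ.δ D T = Δ.δ x0 y0) (hne : T' ≠ T) :
    Δ.δ D T' = Δ.δ x0 y0 * cs.simple i := by
  have h1 : Δ.δ T T' = cs.simple i := Δ.δ_eq_of_mem_Pan hT hT' hne.symm
  rw [← hd]
  exact Δ.step_lt D T T' i h1 (by rw [hd]; exact h.lt)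

theorem uniq {D T T' : C} (hT : T ∈ Δ.Pan i y0) (hT' : T' ∈ Δ.Pan i y0) (hd : Δ.δ D T = Δ.δ x0 y0)
    (hd' : Δ.δ D T' = Δ.δ x0 y0) : T' = T := by
  by_contra hne
  have h1 := h.delta hT hT' hd hne
  rw [hd'] at h1
  exact h.ne_self h1.symm

theorem delta_or {D T : C} (hD : D ∈ Δ.Pan i x0) (hT : T ∈ Δ.Pan i y0) :
    Δ.δ D T = Δ.δ x0 y0 ∨ Δ.δ D T = Δ.δ x0 y0 * cs.simple i := by
  obtain ⟨T0, hT0, hd⟩ := h.ex hD
  by_cases hne : T = T0
  · left; rw [hne, hd]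
  · right; exact h.delta hT0 hT hd hne

theorem ex' {T : C} (hT : T ∈ Δ.Pan i y0) : ∃ D ∈ Δ.Pan i x0, Δ.δ D T = Δ.δ x0 y0 := by
  obtain ⟨D, hD, hd⟩ := h.swap.ex hT
  refine ⟨D, hD, ?_⟩
  rw [Δ.symm T D, hd, Δ.symm x0 y0, inv_inv]

theorem uniq' {D D' T : C} (hD : D ∈ Δ.Pan i x0) (hD' : D' ∈ Δ.Pan i x0) (hd : Δ.δ D T = Δ.δ x0 y0)
    (hd' : Δ.δ D' T = Δ.δ x0 y0) : D' = D := by
  have e : ∀ {X : C}, Δ.δ X T = Δ.δ x0 y0 → Δ.δ T X = Δ.δ y0 x0 := fun {X} hX => by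
    rw [Δ.symm X T, hX, Δ.symm x0 y0]
  exact h.swap.uniq hD hD' (e hd) (e hd')

/-- the bijection of the two panels -/
noncomputable def equiv : {D // D ∈ Δ.Pan i x0} ≃ {T // T ∈ Δ.Pan i y0} :=
  Equiv.ofBijective (fun D => ⟨(h.ex D.2).choose, (h.ex D.2).choose_spec.1⟩) ⟨by
    intro D D' hDD
    have h1 := (h.ex D.2).choose_spec
    have h2 := (h.ex D'.2).choose_spec
    have h3 : (h.ex D.2).choose = (h.ex D'.2).choose := congrArg Subtype.val hDD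
    rw [← h3] at h2
    exact Subtype.ext (h.uniq' D.2 D'.2 h1.2 h2.2).symm, by
    rintro ⟨T, hT⟩
    obtain ⟨D, hD, hd⟩ := h.ex' hT
    refine ⟨⟨D, hD⟩, Subtype.ext ?_⟩
    have h1 := (h.ex hD).choose_spec
    exact h.uniq hT h1.1 hd h1.2⟩

theorem equiv_delta (D : {D // D ∈ Δ.Pan i x0}) : Δ.δ D.1 (h.equiv D).1 = Δ.δ x0 y0 :=
  (h.ex D.2).choose_spec.2

theorem equiv_eq_iff {D : {D // D ∈ Δ.Pan i x0}} {T : {T // T ∈ Δ.Pan i y0}} :
    h.equiv D = T ↔ Δ.δ D.1 T.1 = Δ.δ x0 y0 := by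
  constructor
  · rintro rfl; exact h.equiv_delta D
  · intro h1
    exact Subtype.ext (h.uniq T.2 (h.equiv D).2 h1 (h.equiv_delta D))

end PP

variable {Δ : Bldg cs C} {G : Type*} [Group G] [MulAction G C] {p : ℕ} (S : Sys Δ G p)

/-- the stabiliser of a panel -/
def panStab (i : I) (x0 : C) : Subgroup G where
  carrier := {g | g • x0 ∈ Δ.Pan i x0}
  one_mem' := by
    change (1 : G) • x0 ∈ Δ.Pan i x0
    rw [one_smul]; exact Δ.self_mem_Pan i x0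
  mul_mem' := by
    intro a b ha hb
    change (a * b) • x0 ∈ Δ.Pan i x0
    have ha' : a • x0 ∈ Δ.Pan i x0 := ha
    have hb' : b • x0 ∈ Δ.Pan i x0 := hb
    rw [mul_smul]
    exact Δ.mem_Pan_trans ha' (smul_mem_Pan S hb')
  inv_mem' := by
    intro a ha
    change a⁻¹ • x0 ∈ Δ.Pan i x0
    have ha' : a • x0 ∈ Δ.Pan i x0 := ha
    have h1 := smul_mem_Pan S (g := a⁻¹) ha'
    rw [inv_smul_smul] at h1
    exact Δ.mem_Pan_symm h1

theorem mem_panStab {i : I} {x0 : C} {g : G} : g ∈ panStab S i x0 ↔ g • x0 ∈ Δ.Pan i x0 := Iff.rfl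

include S in
theorem smul_mem_of_stab {i : I} {x0 : C} {g : G} (hg : g • x0 ∈ Δ.Pan i x0) {D : C} (hD : D ∈ Δ.Pan i x0) :
    g • D ∈ Δ.Pan i x0 := Δ.mem_Pan_trans hg (smul_mem_Pan S hD)

/-- the action of the stabiliser of a panel on the panel -/
noncomputable def panHom (i : I) (x0 : C) : panStab S i x0 →* Equiv.Perm {D // D ∈ Δ.Pan i x0} where
  toFun g :=
    { toFun := fun D => ⟨g.1 • D.1, smul_mem_of_stab S g.2 D.2⟩
      invFun := fun D => ⟨g.1⁻¹ • D.1, smul_mem_of_stab S (g := g.1⁻¹) ((panStab S i x0).inv_mem g.2) D.2⟩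
      left_inv := fun D => Subtype.ext (inv_smul_smul g.1 D.1)
      right_inv := fun D => Subtype.ext (smul_inv_smul g.1 D.1) }
  map_one' := by
    ext D
    exact one_smul G D.1
  map_mul' := by
    intro a b
    ext D
    exact mul_smul a.1 b.1 D.1

theorem panHom_apply {i : I} {x0 : C} (g : panStab S i x0) (D : {D // D ∈ Δ.Pan i x0}) :
    (panHom S i x0 g D).1 = g.1 • D.1 := rfl

/-- the permutations of the panel of `x0` induced by the elements of `U D` which stabilise the panel of `y0` -/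
noncomputable def panU (i : I) (x0 y0 : C) (D : {D // D ∈ Δ.Pan i x0}) : Subgroup (Equiv.Perm {D // D ∈ Δ.Pan i x0}) :=
  Subgroup.map (panHom S i x0) ((S.U D.1 ⊓ panStab S i y0).subgroupOf (panStab S i x0))

theorem mem_panU {i : I} {x0 y0 : C} {D : {D // D ∈ Δ.Pan i x0}} {σ : Equiv.Perm {D // D ∈ Δ.Pan i x0}} :
    σ ∈ panU S i x0 y0 D ↔ ∃ g : panStab S i x0, g.1 ∈ S.U D.1 ∧ g.1 • y0 ∈ Δ.Pan i y0 ∧ panHom S i x0 g = σ := by
  unfold panU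
  rw [Subgroup.mem_map]
  constructor
  · rintro ⟨g, hg, rfl⟩
    rw [Subgroup.mem_subgroupOf, Subgroup.mem_inf] at hg
    exact ⟨g, hg.1, hg.2, rfl⟩
  · rintro ⟨g, h1, h2, rfl⟩
    exact ⟨g, by rw [Subgroup.mem_subgroupOf, Subgroup.mem_inf]; exact ⟨h1, h2⟩, rfl⟩

section

variable [F : OppRes.Cox cs]

/-- the equivariance of the bijection -/
theorem equiv_smul {i : I} {x0 y0 : C} (h : PP Δ i x0 y0) {g : G} (h1 : g • x0 ∈ Δ.Pan i x0)
    (h2 : g • y0 ∈ Δ.Pan i y0) (D : {D // D ∈ Δ.Pan i x0}) :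
    (h.equiv ⟨g • D.1, smul_mem_of_stab S h1 D.2⟩).1 = g • (h.equiv D).1 := by
  have h3 : h.equiv ⟨g • D.1, smul_mem_of_stab S h1 D.2⟩ = ⟨g • (h.equiv D).1, smul_mem_of_stab S h2 (h.equiv D).2⟩ := by
    rw [h.equiv_eq_iff]
    change Δ.δ (g • D.1) (g • (h.equiv D).1) = _
    rw [S.iso, h.equiv_delta]
  rw [h3]

/-- elements of `U D` move the panels -/
theorem exists_pan_move {i : I} {x0 y0 : C} (h : PP Δ i x0 y0) {D E E' : {D // D ∈ Δ.Pan i x0}} (hE : E ≠ D)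
    (hE' : E' ≠ D) : ∃ g ∈ S.U D.1, g • x0 ∈ Δ.Pan i x0 ∧ g • y0 ∈ Δ.Pan i y0 ∧ g • E.1 = E'.1 := by
  have hne : ∀ E : {D // D ∈ Δ.Pan i x0}, E ≠ D → Δ.δ D.1 (h.equiv E).1 = Δ.δ x0 y0 * cs.simple i := by
    intro E hE
    refine h.delta (h.equiv D).2 (h.equiv E).2 (h.equiv_delta D) ?_
    intro h1
    exact hE (h.equiv.injective (Subtype.ext h1))
  obtain ⟨g, hg, hg1⟩ := S.exists_move (x := D.1) (z := (h.equiv E).1) (z' := (h.equiv E').1) (by rw [hne E hE, hne E' hE'])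
  have hgD := S.fix D.1 g hg
  have hx : g • x0 ∈ Δ.Pan i x0 := by
    have h1 := smul_mem_Pan S (g := g) (Δ.mem_Pan_symm D.2)
    rw [hgD, Δ.Pan_eq_of_mem D.2] at h1
    exact h1
  have hy : g • y0 ∈ Δ.Pan i y0 := by
    have h1 := smul_mem_Pan S (g := g) (Δ.mem_Pan_symm (h.equiv E).2)
    rw [hg1, Δ.Pan_eq_of_mem (h.equiv E').2] at h1
    exact h1
  refine ⟨g, hg, hx, hy, ?_⟩
  have h1 := equiv_smul S h hx hy E
  rw [hg1] at h1
  exact congrArg Subtype.val (h.equiv.injective (Subtype.ext h1))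

theorem mouSet_panU [hp : Fact p.Prime] {i : I} {x0 y0 : C} (h : PP Δ i x0 y0) : MouSet (panU S i x0 y0) := by
  refine ⟨?_, ?_, ?_, ?_⟩
  · intro D σ hσ
    obtain ⟨g, hg, -, rfl⟩ := (mem_panU S).1 hσ
    exact Subtype.ext (S.fix D.1 g.1 hg)
  · intro D E F hE hF
    obtain ⟨g, hg, h1, h2, h3⟩ := exists_pan_move S h hE hF
    exact ⟨panHom S i x0 ⟨g, h1⟩, (mem_panU S).2 ⟨⟨g, h1⟩, hg, h2, rfl⟩, Subtype.ext h3⟩
  · intro D E hE σ hσ hσE
    obtain ⟨g, hg, -, rfl⟩ := (mem_panU S).1 hσ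
    ext X
    have h1 : g.1 • E.1 = E.1 := congrArg Subtype.val hσE
    have h2 : E.1 ≠ D.1 := fun h3 => hE (Subtype.ext h3)
    have hP := Δ.Pan_eq_of_mem D.2
    exact fix_pan S hg (by rw [hP]; exact E.2) h2 h1 (by rw [hP]; exact X.2)
  · intro D E σ hσ τ hτ
    obtain ⟨g, hg, hg', rfl⟩ := (mem_panU S).1 hσ
    obtain ⟨k, hk, hk', rfl⟩ := (mem_panU S).1 hτ
    refine (mem_panU S).2 ⟨g * k * g⁻¹, ?_, ?_, by rw [map_mul, map_mul, map_inv]⟩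
    · exact S.conj_mem_U hk g.1
    · have h1 : g.1 ∈ panStab S i y0 := hg'
      have h2 : k.1 ∈ panStab S i y0 := hk'
      exact (panStab S i y0).mul_mem ((panStab S i y0).mul_mem h1 h2) ((panStab S i y0).inv_mem h1)

end

/-- no chamber of displacement `v s_i` -/
def RoleE (Δ : Bldg cs C) (x : G) (i : I) (v : W) : Prop := ∀ E : C, Δ.δ E (x • E) ≠ v * cs.simple i

/-- exactly one chamber of displacement `v s_i` in each `i`-panel at the position `{v, v s_i}` -/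
def RoleO (Δ : Bldg cs C) (x : G) (i : I) (v : W) : Prop :=
  ∀ E : C, (Δ.δ E (x • E) = v ∨ Δ.δ E (x • E) = v * cs.simple i) →
    ∃! D, D ∈ Δ.Pan i E ∧ Δ.δ D (x • D) = v * cs.simple i

include S

variable [hp : Fact p.Prime] [F : OppRes.Cox cs] [Finite C]

theorem roleO_of_roleE (hth : Δ.Thick) {a b : G} (hab : Good p a b) {v : W} {i : I}
    (hcomm : cs.simple i * v = v * cs.simple i) (hlen : ℓ (v * cs.simple i) < ℓ v)
    (hv : ∃ c, Δ.δ c (a⁻¹ • c) = v) (hE : RoleE Δ a⁻¹ i v) : RoleO Δ b i v := by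
  classical
  have hss : cs.simple i * cs.simple i = 1 := cs.simple_mul_simple_self i
  intro x0 hx0
  obtain ⟨u, hu⟩ : ∃ u, u = v * cs.simple i := ⟨_, rfl⟩
  unfold RoleE at hE
  rw [← hu] at hlen hx0 hE ⊢
  have huv : u * cs.simple i = v := by rw [hu, mul_assoc, hss, mul_one]
  -- the corresponding chamber
  obtain ⟨y0, hy0, hd⟩ : ∃ y0, b • x0 ∈ Δ.Pan i y0 ∧ Δ.δ x0 y0 = u := by
    rcases hx0 with h | h
    · obtain ⟨z, hz, hz'⟩ := Δ.exists_step x0 (b • x0) i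
      exact ⟨z, Δ.mem_Pan_symm (Δ.mem_Pan_of_δ hz), by rw [hz', h, hu]⟩
    · exact ⟨b • x0, Δ.self_mem_Pan i _, h⟩
  have h : PP Δ i x0 y0 := ⟨by rw [hd, huv]; exact hlen, by
    rw [hd, huv, hu, ← mul_assoc, hcomm, mul_assoc, hss, mul_one]⟩
  let R := {D // D ∈ Δ.Pan i x0}
  have hfin : Finite R := inferInstance
  -- `b` and the panels
  have hbR : ∀ D ∈ Δ.Pan i x0, b • D ∈ Δ.Pan i y0 := fun D hD => Δ.mem_Pan_trans hy0 (smul_mem_Pan S hD)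
  have hbR' : ∀ T ∈ Δ.Pan i y0, b⁻¹ • T ∈ Δ.Pan i x0 := by
    intro T hT
    have h1 := smul_mem_Pan S (g := b⁻¹) (Δ.mem_Pan_trans (Δ.mem_Pan_symm hy0) hT)
    rwa [inv_smul_smul] at h1
  -- a conjugate of `a`
  obtain ⟨T1, hT1, hT1d⟩ : ∃ T1 ∈ Δ.Pan i y0, Δ.δ x0 T1 = v := by
    obtain ⟨z, -, -, hz, -⟩ := hth y0 i
    have hz1 : z ∈ Δ.Pan i y0 := Δ.mem_Pan_of_δ hz
    refine ⟨z, hz1, ?_⟩
    rw [h.delta (Δ.self_mem_Pan i y0) hz1 rfl (Δ.ne_of_δ_simple hz).symm, hd, huv]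
  obtain ⟨c, hc⟩ := hv
  obtain ⟨g, hg1, hg2⟩ := exists_smul_pair S hth (x := c) (y := a⁻¹ • c) (x' := x0) (y' := T1) (by rw [hc, hT1d])
  obtain ⟨a₁, ha₁⟩ : ∃ a₁, a₁ = g * a * g⁻¹ := ⟨_, rfl⟩
  have hab1 : Good p a₁ b := by rw [ha₁]; exact hab.conjL g
  have hax0 : a₁⁻¹ • x0 = T1 := by
    rw [ha₁, mul_inv_rev, mul_inv_rev, inv_inv, mul_smul, mul_smul, ← hg1, inv_smul_smul, hg2]
  have hE1 : ∀ E : C, Δ.δ E (a₁⁻¹ • E) ≠ u := by
    intro E h1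
    apply hE (g⁻¹ • E)
    rw [← h1, ← S.iso g (g⁻¹ • E), smul_inv_smul]
    congr 1
    rw [ha₁, mul_inv_rev, mul_inv_rev, inv_inv, mul_smul, mul_smul]
  have haR : ∀ D ∈ Δ.Pan i x0, a₁⁻¹ • D ∈ Δ.Pan i y0 := fun D hD => by
    have h1 := smul_mem_Pan S (g := a₁⁻¹) hD
    rw [hax0] at h1
    exact Δ.mem_Pan_trans hT1 h1
  have haR' : ∀ T ∈ Δ.Pan i y0, a₁ • T ∈ Δ.Pan i x0 := fun T hT => by
    have h1 := smul_mem_Pan S (g := a₁) (Δ.mem_Pan_trans (Δ.mem_Pan_symm hT1) hT)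
    rw [← hax0, smul_inv_smul] at h1
    exact h1
  -- the permutations
  let βb : R ≃ {T // T ∈ Δ.Pan i y0} :=
    { toFun := fun D => ⟨b • D.1, hbR D.1 D.2⟩
      invFun := fun T => ⟨b⁻¹ • T.1, hbR' T.1 T.2⟩
      left_inv := fun D => Subtype.ext (inv_smul_smul b D.1)
      right_inv := fun T => Subtype.ext (smul_inv_smul b T.1) }
  let βa : R ≃ {T // T ∈ Δ.Pan i y0} :=
    { toFun := fun D => ⟨a₁⁻¹ • D.1, haR D.1 D.2⟩
      invFun := fun T => ⟨a₁ • T.1, haR' T.1 T.2⟩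
      left_inv := fun D => Subtype.ext (smul_inv_smul a₁ D.1)
      right_inv := fun T => Subtype.ext (inv_smul_smul a₁ T.1) }
  let φ := h.equiv
  let ψ : Equiv.Perm R := βb.trans φ.symm
  let α : Equiv.Perm R := βa.trans φ.symm
  have hψ : ∀ D : R, ψ D = D ↔ Δ.δ D.1 (b • D.1) = u := by
    intro D
    change φ.symm (βb D) = D ↔ _
    rw [Equiv.symm_apply_eq, eq_comm, h.equiv_eq_iff, hd]
    exact Iff.rfl
  have hα : ∀ D : R, α D ≠ D := by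
    intro D h1
    change φ.symm (βa D) = D at h1
    rw [Equiv.symm_apply_eq, eq_comm, h.equiv_eq_iff, hd] at h1
    exact hE1 D.1 h1
  have hU := mouSet_panU S h
  have h3 : 3 ≤ Nat.card R := by
    obtain ⟨z1, z2, h12, hz1, hz2⟩ := hth x0 i
    have : Fintype R := Fintype.ofFinite R
    rw [Nat.card_eq_fintype_card, ← Finset.card_univ]
    let r0 : R := ⟨x0, Δ.self_mem_Pan i x0⟩
    let r1 : R := ⟨z1, Δ.mem_Pan_of_δ hz1⟩
    let r2 : R := ⟨z2, Δ.mem_Pan_of_δ hz2⟩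
    have e1 : r0 ≠ r1 := fun h4 => Δ.ne_of_δ_simple hz1 (congrArg Subtype.val h4)
    have e2 : r0 ≠ r2 := fun h4 => Δ.ne_of_δ_simple hz2 (congrArg Subtype.val h4)
    have e3 : r1 ≠ r2 := fun h4 => h12 (congrArg Subtype.val h4)
    have h5 : ({r0, r1, r2} : Finset R).card = 3 := by
      rw [Finset.card_eq_three]
      exact ⟨r0, r1, r2, e1, e2, e3, rfl⟩
    rw [← h5]
    exact Finset.card_le_card (Finset.subset_univ _)
  have H : ∀ σ ∈ ⨆ D, panU S i x0 y0 D, ∃ D, α⁻¹ * (σ * ψ * σ⁻¹) ∈ panU S i x0 y0 D := by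
    intro σ hσ
    -- `σ` comes from the group
    have hσ' : σ ∈ Subgroup.map (panHom S i x0) ((panStab S i y0).subgroupOf (panStab S i x0)) := by
      refine (iSup_le fun D => ?_ : (⨆ D, panU S i x0 y0 D) ≤ _) hσ
      refine Subgroup.map_mono fun x hx => ?_
      rw [Subgroup.mem_subgroupOf] at hx ⊢
      exact hx.2
    obtain ⟨k, hk, rfl⟩ := hσ'
    have hk2 : k.1 • y0 ∈ Δ.Pan i y0 := by
      rw [SetLike.mem_coe, Subgroup.mem_subgroupOf] at hk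
      exact hk
    have hk1 : k.1 • x0 ∈ Δ.Pan i x0 := k.2
    have hki1 : k.1⁻¹ • x0 ∈ Δ.Pan i x0 := (panStab S i x0).inv_mem k.2
    -- the product
    obtain ⟨z, hz⟩ : ∃ z, z = a₁ * (k.1 * b * k.1⁻¹) := ⟨_, rfl⟩
    have hzPE : PE p z := by rw [hz]; exact hab1 k.1
    have hzs : ∀ X : C, z • X = a₁ • (k.1 • (b • (k.1⁻¹ • X))) := by
      intro X
      rw [hz, mul_smul a₁, mul_smul (k.1 * b), mul_smul k.1]
    have hzR : ∀ D ∈ Δ.Pan i x0, z • D ∈ Δ.Pan i x0 := by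
      intro D hD
      rw [hzs]
      exact haR' _ (smul_mem_of_stab S hk2 (hbR _ (smul_mem_of_stab S hki1 hD)))
    obtain ⟨D, hD, hDf⟩ := exists_fixed_pan S hzPE (hzR x0 (Δ.self_mem_Pan i x0))
    have hzU : z ∈ S.U D := mem_U S hzPE hDf
    have hact : ∀ X : R, ((α⁻¹ * (panHom S i x0 k * ψ * (panHom S i x0 k)⁻¹)) X).1 = z • X.1 := by
      intro X
      rw [← map_inv]
      change (βa.symm (φ (panHom S i x0 k (φ.symm (βb (panHom S i x0 k⁻¹ X)))))).1 = z • X.1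
      set Y : R := φ.symm (βb (panHom S i x0 k⁻¹ X)) with hY
      have hY1 : (φ Y).1 = b • (k.1⁻¹ • X.1) := by
        rw [hY, Equiv.apply_symm_apply]
        rfl
      have h5 := equiv_smul S h hk1 hk2 Y
      have h6 : panHom S i x0 k Y = ⟨k.1 • Y.1, smul_mem_of_stab S hk1 Y.2⟩ := rfl
      change a₁ • (h.equiv (panHom S i x0 k Y)).1 = _
      rw [h6, h5, hY1, hzs]
    -- an element of `panU` with the same action
    refine ⟨⟨D, hD⟩, ?_⟩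
    obtain ⟨E, hE⟩ : ∃ E : R, E ≠ ⟨D, hD⟩ := by
      obtain ⟨z1, -, -, hz1, -⟩ := hth D i
      have h7 : z1 ∈ Δ.Pan i x0 := by rw [← Δ.Pan_eq_of_mem hD]; exact Δ.mem_Pan_of_δ hz1
      exact ⟨⟨z1, h7⟩, fun h8 => Δ.ne_of_δ_simple hz1 (congrArg Subtype.val h8).symm⟩
    have hzE : (⟨z • E.1, hzR E.1 E.2⟩ : R) ≠ ⟨D, hD⟩ := by
      intro h8
      have h9 : z • E.1 = D := congrArg Subtype.val h8
      apply hE
      apply Subtype.ext
      change E.1 = D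
      rw [← hDf] at h9
      exact smul_left_cancel z h9
    obtain ⟨g', hg', hgx, hgy, hgE⟩ := exists_pan_move S h hE hzE
    refine (mem_panU S).2 ⟨⟨g', hgx⟩, hg', hgy, ?_⟩
    ext X
    rw [hact X]
    change g' • X.1 = z • X.1
    have h8 : (g'⁻¹ * z) • E.1 = E.1 := by
      rw [mul_smul, inv_smul_eq_iff]
      exact hgE.symm
    have hP := Δ.Pan_eq_of_mem hD
    have h9 := fix_pan S (mul_mem (inv_mem hg') hzU) (y := E.1) (z := X.1) (i := i) (by rw [hP]; exact E.2)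
      (fun h10 => hE (Subtype.ext h10)) h8 (by rw [hP]; exact X.2)
    rw [mul_smul, inv_smul_eq_iff] at h9
    exact h9.symm
  obtain ⟨D, hD, huniq⟩ := rankOne hU h3 hα H
  refine ⟨D.1, ⟨D.2, (hψ D).1 hD⟩, ?_⟩
  rintro D' ⟨hD', hd'⟩
  have := huniq ⟨D', hD'⟩ ((hψ _).2 hd')
  exact congrArg Subtype.val this

/-- **The roles lemma.** -/
theorem roles (hth : Δ.Thick) {a b : G} (hab : Good p a b) {v : W} {i : I} (hv : v ∈ Dis Δ a b)
    (hcomm : cs.simple i * v = v * cs.simple i) (hlen : ℓ (v * cs.simple i) < ℓ v)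
    (hnot : v * cs.simple i ∉ Dis Δ a b) :
    (RoleE Δ a⁻¹ i v ∧ RoleO Δ b i v) ∨ (RoleO Δ a⁻¹ i v ∧ RoleE Δ b i v) := by
  by_cases h1 : RoleE Δ a⁻¹ i v
  · exact Or.inl ⟨h1, roleO_of_roleE S hth hab hcomm hlen hv.1 h1⟩
  · have h2 : RoleE Δ b i v := by
      intro E hE
      apply hnot
      unfold RoleE at h1
      push Not at h1
      obtain ⟨E', hE'⟩ := h1
      exact ⟨⟨E', hE'⟩, ⟨E, hE⟩⟩
    refine Or.inr ⟨?_, h2⟩
    refine roleO_of_roleE S hth hab.inv hcomm hlen ?_ ?_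
    · rw [inv_inv]; exact hv.2
    · rw [inv_inv]; exact h2

end Cfsg.Agent.H197.Cls
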