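import Mathlib
import Cfsg.Agent.H197.Cls.Roles

/-!
# S2451, helper197: the roles, local version and panels with three chambers

* `roleO_of_fpf` : if `a⁻¹` maps ONE `i`-panel to a parallel position without chambers of displacement `v s_i`, then
  `RoleO Δ b i v`;
* `roles3` : if the `i`-panels have three chambers, the roles hold for every `v ∈ Dis Δ a b` with `s_i v = v s_i < v`
  (also if `v s_i ∈ Dis Δ a b`), with the weaker `RoleN` in place of `RoleE`.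
-/

set_option autoImplicit false
set_option linter.unusedSectionVars false
set_option linter.unusedVariables false

open scoped Pointwise

namespace Cfsg.Agent.H197.Cls

open Cfsg.Agent.Tits.Core Cfsg.Agent.Tits.Core.Bldg Cfsg.Agent.Tits.Exchange Cfsg.Agent.Tits Cfsg.Agent.FixBN

variable {I : Type*} {M : CoxeterMatrix I} {W : Type*} [Group W] {cs : CoxeterSystem M W} {C : Type*}

local prefix:100 "ℓ" => cs.length

variable {Δ : Bldg cs C} {G : Type*} [Group G] [MulAction G C] {p : ℕ} (S : Sys Δ G p)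

/-- no chamber of displacement `v s_i` in the `i`-panels of the chambers of displacement `v` -/
def RoleN (Δ : Bldg cs C) (x : G) (i : I) (v : W) : Prop :=
  ∀ E : C, Δ.δ E (x • E) = v → ∀ D ∈ Δ.Pan i E, Δ.δ D (x • D) ≠ v * cs.simple i

omit S in
theorem RoleE.roleN {x : G} {i : I} {v : W} (h : RoleE Δ x i v) : RoleN Δ x i v := fun _ _ D _ => h D

include S

variable [hp : Fact p.Prime] [F : OppRes.Cox cs] [Finite C]

theorem roleO_of_fpf (hth : Δ.Thick) {a b : G} (hab : Good p a b) {v : W} {i : I}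
    (hcomm : cs.simple i * v = v * cs.simple i) (hlen : ℓ (v * cs.simple i) < ℓ v)
    {c : C} (hc : Δ.δ c (a⁻¹ • c) = v) (hE : ∀ D ∈ Δ.Pan i c, Δ.δ D (a⁻¹ • D) ≠ v * cs.simple i) :
    RoleO Δ b i v := by
  classical
  have hss : cs.simple i * cs.simple i = 1 := cs.simple_mul_simple_self i
  intro x0 hx0
  obtain ⟨u, hu⟩ : ∃ u, u = v * cs.simple i := ⟨_, rfl⟩
  rw [← hu] at hlen hx0 hE ⊢
  have huv : u * cs.simple i = v := by rw [hu, mul_assoc, hss, mul_one]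
  -- the corresponding chamber
  obtain ⟨y0, hy0, hd⟩ : ∃ y0, b • x0 ∈ Δ.Pan i y0 ∧ Δ.δ x0 y0 = u := by
    rcases hx0 with h | h
    · obtain ⟨z, hz, hz'⟩ := Δ.exists_step x0 (b • x0) i
      exact ⟨z, Δ.mem_Pan_symm (Δ.mem_Pan_of_δ hz), by rw [hz', h, hu]⟩
    · exact ⟨b • x0, Δ.self_mem_Pan i _, h⟩
  have h : PP Δ i x0 y0 := ⟨by rw [hd, huv]; exact hlen, by
    rw [hd, huv, hu, ← mul_assoc, hcomm, mul_assoc, hss, mul_one]⟩
  let R := {D // D ∈ Δ.Pan i x0}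
  have hfin : Finite R := inferInstance
  -- `b` and the panels
  have hbR : ∀ D ∈ Δ.Pan i x0, b • D ∈ Δ.Pan i y0 := fun D hD => Δ.mem_Pan_trans hy0 (smul_mem_Pan S hD)
  have hbR' : ∀ T ∈ Δ.Pan i y0, b⁻¹ • T ∈ Δ.Pan i x0 := by
    intro T hT
    have h1 := smul_mem_Pan S (g := b⁻¹) (Δ.mem_Pan_trans (Δ.mem_Pan_symm hy0) hT)
    rwa [inv_smul_smul] at h1
  -- a conjugate of `a`
  obtain ⟨T1, hT1, hT1d⟩ : ∃ T1 ∈ Δ.Pan i y0, Δ.δ x0 T1 = v := by
    obtain ⟨z, -, -, hz, -⟩ := hth y0 i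
    have hz1 : z ∈ Δ.Pan i y0 := Δ.mem_Pan_of_δ hz
    refine ⟨z, hz1, ?_⟩
    rw [h.delta (Δ.self_mem_Pan i y0) hz1 rfl (Δ.ne_of_δ_simple hz).symm, hd, huv]
  obtain ⟨g, hg1, hg2⟩ := exists_smul_pair S hth (x := c) (y := a⁻¹ • c) (x' := x0) (y' := T1) (by rw [hc, hT1d])
  obtain ⟨a₁, ha₁⟩ : ∃ a₁, a₁ = g * a * g⁻¹ := ⟨_, rfl⟩
  have hab1 : Good p a₁ b := by rw [ha₁]; exact hab.conjL g
  have hax0 : a₁⁻¹ • x0 = T1 := by
    rw [ha₁, mul_inv_rev, mul_inv_rev, inv_inv, mul_smul, mul_smul, ← hg1, inv_smul_smul, hg2]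
  have hE1 : ∀ E ∈ Δ.Pan i x0, Δ.δ E (a₁⁻¹ • E) ≠ u := by
    intro E hEE h1
    have h2 := smul_mem_Pan S (g := g⁻¹) hEE
    rw [← hg1, inv_smul_smul] at h2
    apply hE (g⁻¹ • E) h2
    rw [← h1, ← S.iso g (g⁻¹ • E), smul_inv_smul]
    congr 1
    rw [ha₁, mul_inv_rev, mul_inv_rev, inv_inv, mul_smul, mul_smul]
  have haR : ∀ D ∈ Δ.Pan i x0, a₁⁻¹ • D ∈ Δ.Pan i y0 := fun D hD => by
    have h1 := smul_mem_Pan S (g := a₁⁻¹) hD
    rw [hax0] at h1
    exact Δ.mem_Pan_trans hT1 h1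
  have haR' : ∀ T ∈ Δ.Pan i y0, a₁ • T ∈ Δ.Pan i x0 := fun T hT => by
    have h1 := smul_mem_Pan S (g := a₁) (Δ.mem_Pan_trans (Δ.mem_Pan_symm hT1) hT)
    rw [← hax0, smul_inv_smul] at h1
    exact h1
  -- the permutations
  let βb : R ≃ {T // T ∈ Δ.Pan i y0} :=
    { toFun := fun D => ⟨b • D.1, hbR D.1 D.2⟩
      invFun := fun T => ⟨b⁻¹ • T.1, hbR' T.1 T.2⟩
      left_inv := fun D => Subtype.ext (inv_smul_smul b D.1)
      right_inv := fun T => Subtype.ext (smul_inv_smul b T.1) }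
  let βa : R ≃ {T // T ∈ Δ.Pan i y0} :=
    { toFun := fun D => ⟨a₁⁻¹ • D.1, haR D.1 D.2⟩
      invFun := fun T => ⟨a₁ • T.1, haR' T.1 T.2⟩
      left_inv := fun D => Subtype.ext (smul_inv_smul a₁ D.1)
      right_inv := fun T => Subtype.ext (inv_smul_smul a₁ T.1) }
  let φ := h.equiv
  let ψ : Equiv.Perm R := βb.trans φ.symm
  let α : Equiv.Perm R := βa.trans φ.symm
  have hψ : ∀ D : R, ψ D = D ↔ Δ.δ D.1 (b • D.1) = u := by
    intro D
    change φ.symm (βb D) = D ↔ _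
    rw [Equiv.symm_apply_eq, eq_comm, h.equiv_eq_iff, hd]
    exact Iff.rfl
  have hα : ∀ D : R, α D ≠ D := by
    intro D h1
    change φ.symm (βa D) = D at h1
    rw [Equiv.symm_apply_eq, eq_comm, h.equiv_eq_iff, hd] at h1
    exact hE1 D.1 D.2 h1
  have hU := mouSet_panU S h
  have h3 : 3 ≤ Nat.card R := by
    obtain ⟨z1, z2, h12, hz1, hz2⟩ := hth x0 i
    have : Fintype R := Fintype.ofFinite R
    rw [Nat.card_eq_fintype_card, ← Finset.card_univ]
    let r0 : R := ⟨x0, Δ.self_mem_Pan i x0⟩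
    let r1 : R := ⟨z1, Δ.mem_Pan_of_δ hz1⟩
    let r2 : R := ⟨z2, Δ.mem_Pan_of_δ hz2⟩
    have e1 : r0 ≠ r1 := fun h4 => Δ.ne_of_δ_simple hz1 (congrArg Subtype.val h4)
    have e2 : r0 ≠ r2 := fun h4 => Δ.ne_of_δ_simple hz2 (congrArg Subtype.val h4)
    have e3 : r1 ≠ r2 := fun h4 => h12 (congrArg Subtype.val h4)
    have h5 : ({r0, r1, r2} : Finset R).card = 3 := by
      rw [Finset.card_eq_three]
      exact ⟨r0, r1, r2, e1, e2, e3, rfl⟩
    rw [← h5]
    exact Finset.card_le_card (Finset.subset_univ _)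
  have H : ∀ σ ∈ ⨆ D, panU S i x0 y0 D, ∃ D, α⁻¹ * (σ * ψ * σ⁻¹) ∈ panU S i x0 y0 D := by
    intro σ hσ
    -- `σ` comes from the group
    have hσ' : σ ∈ Subgroup.map (panHom S i x0) ((panStab S i y0).subgroupOf (panStab S i x0)) := by
      refine (iSup_le fun D => ?_ : (⨆ D, panU S i x0 y0 D) ≤ _) hσ
      refine Subgroup.map_mono fun x hx => ?_
      rw [Subgroup.mem_subgroupOf] at hx ⊢
      exact hx.2
    obtain ⟨k, hk, rfl⟩ := hσ'
    have hk2 : k.1 • y0 ∈ Δ.Pan i y0 := by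
      rw [SetLike.mem_coe, Subgroup.mem_subgroupOf] at hk
      exact hk
    have hk1 : k.1 • x0 ∈ Δ.Pan i x0 := k.2
    have hki1 : k.1⁻¹ • x0 ∈ Δ.Pan i x0 := (panStab S i x0).inv_mem k.2
    -- the product
    obtain ⟨z, hz⟩ : ∃ z, z = a₁ * (k.1 * b * k.1⁻¹) := ⟨_, rfl⟩
    have hzPE : PE p z := by rw [hz]; exact hab1 k.1
    have hzs : ∀ X : C, z • X = a₁ • (k.1 • (b • (k.1⁻¹ • X))) := by
      intro X
      rw [hz, mul_smul a₁, mul_smul (k.1 * b), mul_smul k.1]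
    have hzR : ∀ D ∈ Δ.Pan i x0, z • D ∈ Δ.Pan i x0 := by
      intro D hD
      rw [hzs]
      exact haR' _ (smul_mem_of_stab S hk2 (hbR _ (smul_mem_of_stab S hki1 hD)))
    obtain ⟨D, hD, hDf⟩ := exists_fixed_pan S hzPE (hzR x0 (Δ.self_mem_Pan i x0))
    have hzU : z ∈ S.U D := mem_U S hzPE hDf
    have hact : ∀ X : R, ((α⁻¹ * (panHom S i x0 k * ψ * (panHom S i x0 k)⁻¹)) X).1 = z • X.1 := by
      intro X
      rw [← map_inv]
      change (βa.symm (φ (panHom S i x0 k (φ.symm (βb (panHom S i x0 k⁻¹ X)))))).1 = z • X.1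
      set Y : R := φ.symm (βb (panHom S i x0 k⁻¹ X)) with hY
      have hY1 : (φ Y).1 = b • (k.1⁻¹ • X.1) := by
        rw [hY, Equiv.apply_symm_apply]
        rfl
      have h5 := equiv_smul S h hk1 hk2 Y
      have h6 : panHom S i x0 k Y = ⟨k.1 • Y.1, smul_mem_of_stab S hk1 Y.2⟩ := rfl
      change a₁ • (h.equiv (panHom S i x0 k Y)).1 = _
      rw [h6, h5, hY1, hzs]
    -- an element of `panU` with the same action
    refine ⟨⟨D, hD⟩, ?_⟩
    obtain ⟨E, hE⟩ : ∃ E : R, E ≠ ⟨D, hD⟩ := by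
      obtain ⟨z1, -, -, hz1, -⟩ := hth D i
      have h7 : z1 ∈ Δ.Pan i x0 := by rw [← Δ.Pan_eq_of_mem hD]; exact Δ.mem_Pan_of_δ hz1
      exact ⟨⟨z1, h7⟩, fun h8 => Δ.ne_of_δ_simple hz1 (congrArg Subtype.val h8).symm⟩
    have hzE : (⟨z • E.1, hzR E.1 E.2⟩ : R) ≠ ⟨D, hD⟩ := by
      intro h8
      have h9 : z • E.1 = D := congrArg Subtype.val h8
      apply hE
      apply Subtype.ext
      change E.1 = D
      rw [← hDf] at h9
      exact smul_left_cancel z h9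
    obtain ⟨g', hg', hgx, hgy, hgE⟩ := exists_pan_move S h hE hzE
    refine (mem_panU S).2 ⟨⟨g', hgx⟩, hg', hgy, ?_⟩
    ext X
    rw [hact X]
    change g' • X.1 = z • X.1
    have h8 : (g'⁻¹ * z) • E.1 = E.1 := by
      rw [mul_smul, inv_smul_eq_iff]
      exact hgE.symm
    have hP := Δ.Pan_eq_of_mem hD
    have h9 := fix_pan S (mul_mem (inv_mem hg') hzU) (y := E.1) (z := X.1) (i := i) (by rw [hP]; exact E.2)
      (fun h10 => hE (Subtype.ext h10)) h8 (by rw [hP]; exact X.2)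
    rw [mul_smul, inv_smul_eq_iff] at h9
    exact h9.symm
  obtain ⟨D, hD, huniq⟩ := rankOne hU h3 hα H
  refine ⟨D.1, ⟨D.2, (hψ D).1 hD⟩, ?_⟩
  rintro D' ⟨hD', hd'⟩
  have := huniq ⟨D', hD'⟩ ((hψ _).2 hd')
  exact congrArg Subtype.val this


/-- three chambers: not both elements induce transpositions -/
theorem no_trans (hth : Δ.Thick) {a b : G} (hab : Good p a b) {v : W} {i : I}
    (h3 : ∀ x : C, Nat.card {D // D ∈ Δ.Pan i x} = 3)
    (hcomm : cs.simple i * v = v * cs.simple i) (hlen : ℓ (v * cs.simple i) < ℓ v)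
    {ca da cb db : C} (hca : Δ.δ ca (a⁻¹ • ca) = v) (hda : da ∈ Δ.Pan i ca) (hda' : Δ.δ da (a⁻¹ • da) = v * cs.simple i)
    (hcb : Δ.δ cb (b • cb) = v) (hdb : db ∈ Δ.Pan i cb) (hdb' : Δ.δ db (b • db) = v * cs.simple i) : False := by
  classical
  have hss : cs.simple i * cs.simple i = 1 := cs.simple_mul_simple_self i
  obtain ⟨u, hu⟩ : ∃ u, u = v * cs.simple i := ⟨_, rfl⟩
  rw [← hu] at hlen hda' hdb'
  have huv : u * cs.simple i = v := by rw [hu, mul_assoc, hss, mul_one]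
  have hne : u ≠ v := fun h => by rw [h] at hlen; omega
  obtain ⟨T1, hT1⟩ : ∃ T1, T1 = a⁻¹ • da := ⟨_, rfl⟩
  have hd : Δ.δ da T1 = u := by rw [hT1, hda']
  have h : PP Δ i da T1 := ⟨by rw [hd, huv]; exact hlen, by
    rw [hd, huv, hu, ← mul_assoc, hcomm, mul_assoc, hss, mul_one]⟩
  have hca1 : ca ∈ Δ.Pan i da := Δ.mem_Pan_symm hda
  obtain ⟨T2, hT2, hT2d⟩ := h.ex hca1
  rw [hd] at hT2d
  obtain ⟨g, hg1, hg2⟩ := exists_smul_pair S hth (x := db) (y := b • db) (x' := ca) (y' := T2) (by rw [hdb', hT2d])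
  obtain ⟨b₁, hb₁⟩ : ∃ b₁, b₁ = g * b * g⁻¹ := ⟨_, rfl⟩
  have hab1 : Good p a b₁ := by rw [hb₁]; exact hab.conjR g
  have hb1ca : b₁ • ca = T2 := by
    rw [hb₁, mul_smul, mul_smul, ← hg1, inv_smul_smul, hg2]
  have hcane : ca ≠ da := by
    rintro rfl
    rw [hca] at hda'
    exact hne hda'.symm
  -- the third chamber
  obtain ⟨d3, hd3, ⟨hd3a, hd3c⟩, hall⟩ : ∃ d3 ∈ Δ.Pan i da, (d3 ≠ da ∧ d3 ≠ ca) ∧
      ∀ D ∈ Δ.Pan i da, D = da ∨ D = ca ∨ D = d3 := by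
    have h4 := h3 da
    have : Fintype {D // D ∈ Δ.Pan i da} := Fintype.ofFinite _
    rw [Nat.card_eq_fintype_card, ← Finset.card_univ] at h4
    let r1 : {D // D ∈ Δ.Pan i da} := ⟨da, Δ.self_mem_Pan i da⟩
    let r2 : {D // D ∈ Δ.Pan i da} := ⟨ca, hca1⟩
    have h12 : r2 ≠ r1 := fun h5 => hcane (congrArg Subtype.val h5)
    have h5 : ((Finset.univ.erase r1).erase r2).card = 1 := by
      rw [Finset.card_erase_of_mem (by simp [h12]), Finset.card_erase_of_mem (Finset.mem_univ _), h4]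
    obtain ⟨r3, hr3⟩ := Finset.card_eq_one.1 h5
    have h6 : r3 ∈ (Finset.univ.erase r1).erase r2 := by rw [hr3]; simp
    rw [Finset.mem_erase, Finset.mem_erase] at h6
    refine ⟨r3.1, r3.2, ⟨fun h7 => h6.2.1 (Subtype.ext h7), fun h7 => h6.1 (Subtype.ext h7)⟩, fun D hD => ?_⟩
    by_cases e1 : D = da
    · exact Or.inl e1
    by_cases e2 : D = ca
    · exact Or.inr (Or.inl e2)
    right; right
    have h7 : (⟨D, hD⟩ : {D // D ∈ Δ.Pan i da}) ∈ (Finset.univ.erase r1).erase r2 := by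
      rw [Finset.mem_erase, Finset.mem_erase]
      exact ⟨fun h8 => e2 (congrArg Subtype.val h8), fun h8 => e1 (congrArg Subtype.val h8), Finset.mem_univ _⟩
    rw [hr3, Finset.mem_singleton] at h7
    exact congrArg Subtype.val h7
  -- the other panel
  obtain ⟨T3, hT3, hT3d⟩ := h.ex hd3
  rw [hd] at hT3d
  have hT1m : T1 ∈ Δ.Pan i T1 := Δ.self_mem_Pan i T1
  have hallT : ∀ T ∈ Δ.Pan i T1, T = T1 ∨ T = T2 ∨ T = T3 := by
    intro T hT
    obtain ⟨D, hD, hDT⟩ := h.ex' hT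
    rcases hall D hD with rfl | rfl | rfl
    · left; exact h.uniq hT1m hT rfl hDT
    · right; left; exact h.uniq hT2 hT (by rw [hT2d, hd]) hDT
    · right; right; exact h.uniq hT3 hT (by rw [hT3d, hd]) hDT
  have hT12 : T2 ≠ T1 := by
    rintro rfl
    exact hcane (h.uniq' (Δ.self_mem_Pan i da) hca1 rfl (by rw [hT2d, hd]))
  have hT13 : T3 ≠ T1 := by
    rintro rfl
    exact hd3a (h.uniq' (Δ.self_mem_Pan i da) hd3 rfl (by rw [hT3d, hd]))
  have hT23 : T3 ≠ T2 := by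
    rintro rfl
    exact hd3c (h.uniq' hca1 hd3 (by rw [hT2d, hd]) (by rw [hT3d, hd]))
  -- `a⁻¹`
  have haR : ∀ D ∈ Δ.Pan i da, a⁻¹ • D ∈ Δ.Pan i T1 := fun D hD => by
    have h1 := smul_mem_Pan S (g := a⁻¹) hD
    rwa [← hT1] at h1
  have ha2 : a⁻¹ • ca = T3 := by
    rcases hallT _ (haR ca hca1) with h1 | h1 | h1
    · rw [hT1] at h1
      exact absurd (smul_left_cancel _ h1) hcane
    · rw [h1, hT2d] at hca
      exact absurd hca hne
    · exact h1
  have ha3 : a⁻¹ • d3 = T2 := by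
    rcases hallT _ (haR d3 hd3) with h1 | h1 | h1
    · rw [hT1] at h1
      exact absurd (smul_left_cancel _ h1) hd3a
    · exact h1
    · rw [← ha2] at h1
      exact absurd (smul_left_cancel _ h1) hd3c
  -- `b₁`
  have hbR : ∀ D ∈ Δ.Pan i da, b₁ • D ∈ Δ.Pan i T1 := fun D hD => by
    have h1 := smul_mem_Pan S (g := b₁) (Δ.mem_Pan_trans (Δ.mem_Pan_symm hca1) hD)
    rw [hb1ca] at h1
    exact Δ.mem_Pan_trans hT2 h1
  have hb1 : b₁ • da = T3 := by
    rcases hallT _ (hbR da (Δ.self_mem_Pan i da)) with h1 | h1 | h1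
    · exfalso
      -- then all chambers of the panel have displacement `u`
      have hb3 : b₁ • d3 = T3 := by
        rcases hallT _ (hbR d3 hd3) with h5 | h5 | h5
        · rw [← h1] at h5
          exact absurd (smul_left_cancel _ h5) hd3a
        · rw [← hb1ca] at h5
          exact absurd (smul_left_cancel _ h5) hd3c
        · exact h5
      have hgc : g • cb ∈ Δ.Pan i da := by
        have h5 := smul_mem_Pan S (g := g) (Δ.mem_Pan_symm hdb)
        rw [hg1] at h5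
        exact Δ.mem_Pan_trans hca1 h5
      have hgd : Δ.δ (g • cb) (b₁ • (g • cb)) = v := by
        rw [hb₁, mul_smul, mul_smul, inv_smul_smul, S.iso, hcb]
      rcases hall _ hgc with h5 | h5 | h5
      · rw [h5, h1, hd] at hgd; exact hne hgd
      · rw [h5, hb1ca, hT2d] at hgd; exact hne hgd
      · rw [h5, hb3, hT3d] at hgd; exact hne hgd
    · rw [← hb1ca] at h1
      exact absurd (smul_left_cancel _ h1).symm hcane
    · exact h1
  have hb3 : b₁ • d3 = T1 := by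
    rcases hallT _ (hbR d3 hd3) with h5 | h5 | h5
    · exact h5
    · rw [← hb1ca] at h5
      exact absurd (smul_left_cancel _ h5) hd3c
    · rw [← hb1] at h5
      exact absurd (smul_left_cancel _ h5) hd3a
  -- the product
  have hz : (a * b₁) • da ∈ Δ.Pan i da := by
    rw [mul_smul, hb1, ← ha2, smul_inv_smul]
    exact hca1
  obtain ⟨D, hD, hDf⟩ := exists_fixed_pan S hab1.mul hz
  have hDf' : b₁ • D = a⁻¹ • D := by rw [eq_inv_smul_iff, ← mul_smul, hDf]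
  rcases hall D hD with rfl | rfl | rfl
  · rw [hb1, ← hT1] at hDf'
    exact hT13 hDf'
  · rw [hb1ca, ha2] at hDf'
    exact hT23 hDf'.symm
  · rw [hb3, ha3] at hDf'
    exact hT12 hDf'.symm

/-- **The roles lemma for panels with three chambers.** -/
theorem roles3 (hth : Δ.Thick) {a b : G} (hab : Good p a b) {v : W} {i : I}
    (h3 : ∀ x : C, Nat.card {D // D ∈ Δ.Pan i x} = 3) (hv : v ∈ Dis Δ a b)
    (hcomm : cs.simple i * v = v * cs.simple i) (hlen : ℓ (v * cs.simple i) < ℓ v) :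
    (RoleN Δ a⁻¹ i v ∧ RoleO Δ b i v) ∨ (RoleO Δ a⁻¹ i v ∧ RoleN Δ b i v) := by
  obtain ⟨⟨ca, hca⟩, cb, hcb⟩ := hv
  by_cases h1 : RoleN Δ a⁻¹ i v
  · exact Or.inl ⟨h1, roleO_of_fpf S hth hab hcomm hlen hca (h1 ca hca)⟩
  · have h2 : RoleN Δ b i v := by
      intro E hE D hD hD'
      unfold RoleN at h1
      push Not at h1
      obtain ⟨E', hE', D', hD2, hD3⟩ := h1
      exact no_trans S hth hab h3 hcomm hlen hE' hD2 hD3 hE hD hD'
    refine Or.inr ⟨?_, h2⟩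
    refine roleO_of_fpf S hth hab.inv hcomm hlen (c := cb) (by rw [inv_inv]; exact hcb) ?_
    rw [inv_inv]
    exact h2 cb hcb

end Cfsg.Agent.H197.Cls
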