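import Mathlib
import Cfsg.Agent.H197.Cls.Roles3
import Cfsg.Agent.H150.AH.QuadCard

/-!
# S2451, helper197: Lemma Z

`M i j = 4`, the `j`-panels have three chambers, `x` a `p`-element without chambers of displacement `s_j s_i s_j`: then it has
no chamber of displacement `w0 = s_j s_i s_j s_i`.
-/

set_option autoImplicit false
set_option linter.unusedSectionVars false
set_option linter.unusedVariables false

open scoped Pointwise

namespace Cfsg.Agent.H197.Cls

open Cfsg.Agent.Tits.Core Cfsg.Agent.Tits.Core.Bldg Cfsg.Agent.Tits.Exchange Cfsg.Agent.Tits Cfsg.Agent.FixBN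

variable {I : Type*} {M : CoxeterMatrix I} {W : Type*} [Group W] {cs : CoxeterSystem M W} {C : Type*}

local prefix:100 "ℓ" => cs.length

variable {Δ : Bldg cs C}

theorem len_pan {k : I} {X Z Z' : C} (h : Z' ∈ Δ.Pan k Z) : ℓ (Δ.δ X Z') ≤ ℓ (Δ.δ X Z) + 1 := by
  rcases h with rfl | h
  · omega
  · rcases Δ.step X Z Z' k h with h1 | h1
    · rw [h1]
      rcases cs.length_mul_simple (Δ.δ X Z) k with h2 | h2 <;> omega
    · rw [h1]; omega

variable [Finite I] [Finite W]

/-- the gallery alternative, left half: `δ D Z` without left descent `j` or of length at most two -/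
theorem near_or {i j : I} (hm : M i j = 4) {D Z : C} (h : Δ.δ D Z ∈ WJ cs {i, j}) :
    (∃ D1 ∈ Δ.Pan i D, ∃ Z1 ∈ Δ.Pan j D1, Z ∈ Δ.Pan i Z1) ∨
      Δ.δ D Z = cs.simple j * cs.simple i * cs.simple j ∨
      Δ.δ D Z = cs.simple j * cs.simple i * cs.simple j * cs.simple i := by
  have hm' : M j i = 4 := by rw [M.symmetric]; exact hm
  have hij : i ≠ j := by rintro rfl; rw [M.diagonal] at hm; omega
  have l2 := Generic.length_two cs hij
  have l2' := Generic.length_two cs hij.symm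
  have l3 := Generic.length_three cs hij (by omega)
  have l1 := cs.length_simple i
  have l1' := cs.length_simple j
  rw [Set.pair_comm] at h
  rcases H150.AH.mem_WJ_four hm' h with h | h | h | h | h | h | h | h
  · left
    have := Δ.eq_of_δ_eq_one h
    subst this
    exact ⟨D, Δ.self_mem_Pan i D, D, Δ.self_mem_Pan j D, Δ.self_mem_Pan i D⟩
  · left
    exact ⟨D, Δ.self_mem_Pan i D, Z, Δ.mem_Pan_of_δ h, Δ.self_mem_Pan i Z⟩
  · left
    exact ⟨D, Δ.self_mem_Pan i D, D, Δ.self_mem_Pan j D, Δ.mem_Pan_of_δ h⟩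
  · left
    obtain ⟨Z1, h1, h2⟩ := Δ.exists_between h (by rw [l2', l1, l1'])
    exact ⟨D, Δ.self_mem_Pan i D, Z1, Δ.mem_Pan_of_δ h1, Δ.mem_Pan_of_δ h2⟩
  · left
    obtain ⟨D1, h1, h2⟩ := Δ.exists_between h (by rw [l2, l1, l1'])
    exact ⟨D1, Δ.mem_Pan_of_δ h1, Z, Δ.mem_Pan_of_δ h2, Δ.self_mem_Pan i Z⟩
  · right; left; exact h
  · left
    obtain ⟨Z1, h1, h2⟩ := Δ.exists_between h (by rw [l3, l2, l1])
    obtain ⟨D1, h3, h4⟩ := Δ.exists_between h1 (by rw [l2, l1, l1'])
    exact ⟨D1, Δ.mem_Pan_of_δ h3, Z1, Δ.mem_Pan_of_δ h4, Δ.mem_Pan_of_δ h2⟩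
  · right; right; exact h

/-- all chambers are reached by galleries of type `j i j i` -/
theorem path_jiji {i j : I} (hm : M i j = 4) {D Z : C} (h : Δ.δ D Z ∈ WJ cs {i, j}) :
    ∃ D1 ∈ Δ.Pan j D, ∃ D2 ∈ Δ.Pan i D1, ∃ Z1 ∈ Δ.Pan j D2, Z ∈ Δ.Pan i Z1 := by
  have hm' : M j i = 4 := by rw [M.symmetric]; exact hm
  have hij : i ≠ j := by rintro rfl; rw [M.diagonal] at hm; omega
  have l2' := Generic.length_two cs hij.symm
  have l3' := Generic.length_three cs hij.symm (by omega)
  have l4' := Generic.length_four cs hij.symm hm'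
  have l1 := cs.length_simple i
  have l1' := cs.length_simple j
  rcases near_or hm h with ⟨D1, h1, Z1, h2, h3⟩ | h1 | h1
  · exact ⟨D, Δ.self_mem_Pan j D, D1, h1, Z1, h2, h3⟩
  · obtain ⟨D2, h2, h3⟩ := Δ.exists_between h1 (by rw [l3', l2', l1'])
    obtain ⟨D1, h4, h5⟩ := Δ.exists_between h2 (by rw [l2', l1, l1'])
    exact ⟨D1, Δ.mem_Pan_of_δ h4, D2, Δ.mem_Pan_of_δ h5, Z, Δ.mem_Pan_of_δ h3, Δ.self_mem_Pan i Z⟩
  · obtain ⟨Z1, h2, h3⟩ := Δ.exists_between h1 (by rw [l4', l3', l1])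
    obtain ⟨D2, h4, h5⟩ := Δ.exists_between h2 (by rw [l3', l2', l1'])
    obtain ⟨D1, h6, h7⟩ := Δ.exists_between h4 (by rw [l2', l1, l1'])
    exact ⟨D1, Δ.mem_Pan_of_δ h6, D2, Δ.mem_Pan_of_δ h7, Z1, Δ.mem_Pan_of_δ h5, Δ.mem_Pan_of_δ h3⟩

variable {G : Type*} [Group G] [MulAction G C] {p : ℕ} (S : Sys Δ G p)

include S

variable [hp : Fact p.Prime] [F : OppRes.Cox cs] [Finite C]

/-- **Lemma Z.** -/
theorem no_w0 (hth : Δ.Thick) {x : G} (hx : PE p x) {i j : I} (hm : M i j = 4)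
    (h3 : ∀ c : C, Nat.card {D // D ∈ Δ.Pan j c} = 3)
    (hno : ∀ c, Δ.δ c (x • c) ≠ cs.simple j * cs.simple i * cs.simple j) (Y : C) :
    Δ.δ Y (x • Y) ≠ cs.simple j * cs.simple i * cs.simple j * cs.simple i := by
  classical
  intro hY
  have hm' : M j i = 4 := by rw [M.symmetric]; exact hm
  have hij : i ≠ j := by rintro rfl; rw [M.diagonal] at hm; omega
  have hb := Generic.braid_four cs hm
  have l2 := Generic.length_two cs hij
  have l2' := Generic.length_two cs hij.symm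
  have l3 := Generic.length_three cs hij (by omega)
  have l3' := Generic.length_three cs hij.symm (by omega)
  have l4 := Generic.length_four cs hij hm
  have l4' := Generic.length_four cs hij.symm hm'
  have l1 := cs.length_simple i
  have l1' := cs.length_simple j
  have hsm : cs.simple i ∈ WJ cs {i, j} := Generic.simple_mem_left cs i j
  have htm : cs.simple j ∈ WJ cs {i, j} := Generic.simple_mem_right cs i j
  have hss : cs.simple i * cs.simple i = 1 := cs.simple_mul_simple_self i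
  have htt : cs.simple j * cs.simple j = 1 := cs.simple_mul_simple_self j
  -- step A
  have hA : ∀ {c D : C}, x • c = c → D ∈ Δ.Pan i c → x • D = D := by
    intro c D hc hD
    by_contra hne
    have h1 : Δ.δ D (x • D) = cs.simple i := by
      refine Δ.δ_eq_of_mem_Pan (x := c) hD ?_ (Ne.symm hne)
      have := smul_mem_Pan S (g := x) hD
      rwa [hc] at this
    obtain ⟨D', -, -, hD', -⟩ := hth D j
    have h2 : Δ.δ D' (x • D) = cs.simple j * cs.simple i :=
      Δ.δ_mul_of (Δ.δ_symm_simple hD') h1 (by rw [l2', l1, l1'])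
    have h4 : Δ.δ (x • D) (x • D') = cs.simple j := by rw [S.iso]; exact hD'
    exact hno D' (Δ.δ_mul_of h2 h4 (by rw [l3', l2', l1']))
  -- a fixed chamber
  have hYm : Δ.δ Y (x • Y) ∈ WJ cs {i, j} := by
    rw [hY]
    exact mul_mem (mul_mem (mul_mem htm hsm) htm) hsm
  obtain ⟨D0, hD0, hD0x⟩ := exists_fixed_res S hx (J := {i, j}) (x := Y) hYm
  have hRfix : ∀ D ∈ Δ.Pan i D0, x • D = D := fun D hD => hA hD0x hD
  -- short displacement
  have hshort : ∀ {D1 Z1 : C}, x • D1 = D1 → Z1 ∈ Δ.Pan j D1 → Y ∈ Δ.Pan i Z1 → False := by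
    intro D1 Z1 h1 h2 h4
    have h5 : x • Z1 ∈ Δ.Pan j Z1 := by
      have := smul_mem_Pan S (g := x) h2
      rw [h1] at this
      rw [Δ.Pan_eq_of_mem h2]
      exact this
    have h6 : ℓ (Δ.δ Y Z1) ≤ 1 := by
      rcases Δ.mem_Pan_symm h4 with h7 | h7
      · rw [h7, Δ.δ_self, cs.length_one]; omega
      · rw [h7, l1]
    have h7 := len_pan (X := Y) h5
    have h8 := len_pan (X := Y) (smul_mem_Pan S (g := x) h4)
    rw [hY, l4'] at h8
    omega
  have hD0res : ∀ {D : C}, D ∈ Δ.Pan i D0 → D ∈ Δ.Res {i, j} Y := fun {D} hD =>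
    Δ.mem_Res_trans hD0 (Δ.Pan_subset_Res (by simp) D0 hD)
  -- step B
  have hB : ∀ D ∈ Δ.Pan i D0, ∀ F' ∈ Δ.Pan j D, F' ≠ D → x • F' ≠ F' := by
    intro D hD F' hF' hne hF'x
    have hxD := hRfix D hD
    have hU := mem_U S hx hxD
    have hall : ∀ z ∈ Δ.Pan j D, x • z = z := fun z hz => fix_pan S hU hF' hne hF'x hz
    have h1 : Δ.δ D Y ∈ WJ cs {i, j} := Δ.mem_Res_comm.1 (hD0res hD)
    obtain ⟨D1, h4, D2, h5, Z1, h6, h7⟩ := path_jiji hm h1
    exact hshort (hA (hall D1 h4) h5) h6 h7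
  -- opposite chambers
  have hopp : ∀ Z : C, Z ∈ Δ.Res {i, j} Y → (∃ D1 ∈ Δ.Pan i D0, ∃ Z1 ∈ Δ.Pan j D1, Z ∈ Δ.Pan i Z1) ∨
      ∀ D ∈ Δ.Pan i D0, Δ.δ D Z = cs.simple j * cs.simple i * cs.simple j ∨
        Δ.δ D Z = cs.simple j * cs.simple i * cs.simple j * cs.simple i := by
    intro Z hZ
    by_cases hcase : ∃ D1 ∈ Δ.Pan i D0, ∃ Z1 ∈ Δ.Pan j D1, Z ∈ Δ.Pan i Z1
    · exact Or.inl hcase
    · right
      intro D hD
      have h1 : Δ.δ D Z ∈ WJ cs {i, j} := Δ.δ_mem_of_mem_Res (hD0res hD) hZ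
      rcases near_or hm h1 with ⟨D1, h4, Z1, h5, h6⟩ | h1
      · exact absurd ⟨D1, Δ.mem_Pan_trans hD h4, Z1, h5, h6⟩ hcase
      · exact h1
  let Opp : C → Prop := fun Z => ∀ D ∈ Δ.Pan i D0, Δ.δ D Z = cs.simple j * cs.simple i * cs.simple j ∨
        Δ.δ D Z = cs.simple j * cs.simple i * cs.simple j * cs.simple i
  have hlen3 : ∀ {D Z : C}, D ∈ Δ.Pan i D0 → Opp Z → 3 ≤ ℓ (Δ.δ D Z) := by
    intro D Z hD hZ
    rcases hZ D hD with h | h
    · rw [h, l3']
    · rw [h, l4']; omega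
  have hYopp : Opp Y := by
    rcases hopp Y (Δ.self_mem_Res _ Y) with ⟨D1, h1, Z1, h2, h4⟩ | h
    · exact (hshort (hRfix D1 h1) h2 h4).elim
    · exact h
  have hOppI : ∀ {Z Z' : C}, Opp Z → Z' ∈ Δ.Pan i Z → Opp Z' := by
    intro Z Z' hZ hZ' D hD
    rcases hZ' with rfl | hZ'
    · exact hZ D hD
    · rcases hZ D hD with h | h
      · right
        exact Δ.δ_mul_of h hZ' (by rw [l4', l3', l1])
      · rcases Δ.step D Z Z' i hZ' with h1 | h1
        · left; rw [h1, h, mul_assoc _ (cs.simple i), hss, mul_one]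
        · right; rw [h1, h]
  -- the gallery from `Y` to `x Y`
  obtain ⟨Y2, hY2, hY2'⟩ := Δ.exists_between hY (by rw [l4', l3', l1])
  obtain ⟨V', hV', hV'2⟩ := Δ.exists_between hY2 (by rw [l3', l2', l1'])
  obtain ⟨V, hV, hVV'⟩ := Δ.exists_between hV' (by rw [l2', l1', l1])
  have hY'opp : Opp (x • Y) := by
    intro D hD
    rw [← hRfix D hD, S.iso]
    exact hYopp D hD
  have hY2opp : Opp Y2 := hOppI hY'opp (Δ.mem_Pan_symm (Δ.mem_Pan_of_δ hY2'))
  have hVres : V ∈ Δ.Res {i, j} Y := by rw [mem_Res, hV]; exact htm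
  rcases hopp V hVres with ⟨D1, hD1, V1, hV1, hVV1⟩ | hVopp
  · -- case α
    have hY1 := hlen3 hD1 hYopp
    have hY2l := hlen3 hD1 hY2opp
    -- nonstuttering
    have key : ∀ {V Y : C}, V ∈ Δ.Pan i V1 → Δ.δ V Y = cs.simple j → 3 ≤ ℓ (Δ.δ D1 Y) →
        Δ.δ V1 Y = cs.simple i * cs.simple j := by
      intro V Y hVV1 hVY hl
      have hVne : Δ.δ V1 V = cs.simple i := by
        rcases hVV1 with rfl | h
        · exfalso
          have h1 : Y ∈ Δ.Pan j D1 := Δ.mem_Pan_trans hV1 (Δ.mem_Pan_of_δ hVY)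
          have h2 : ℓ (Δ.δ D1 Y) ≤ 1 := by
            rcases h1 with h1 | h1
            · rw [h1, Δ.δ_self, cs.length_one]; omega
            · rw [h1, l1']
          omega
        · exact h
      exact Δ.δ_mul_of hVne hVY (by rw [l2, l1, l1'])
    have e1 := key hVV1 (Δ.δ_symm_simple hV) hY1
    have e2 := key (Δ.mem_Pan_trans hVV1 (Δ.mem_Pan_of_δ hVV')) hV'2 hY2l
    have e3 : Δ.δ V1 (x • Y) = cs.simple i * cs.simple j * cs.simple i :=
      Δ.δ_mul_of e2 hY2' (by rw [l3, l2, l1])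
    have e4 : Δ.δ (x • V1) (x • Y) = cs.simple i * cs.simple j := by rw [S.iso, e1]
    have e5 : x • V1 ∈ Δ.Pan j V1 := by
      have := smul_mem_Pan S (g := x) hV1
      rw [hRfix D1 hD1] at this
      rw [Δ.Pan_eq_of_mem hV1]
      exact this
    have e6 := len_pan (Δ := Δ) (X := x • Y) (Δ.mem_Pan_symm e5)
    rcases e5 with e5 | e5
    · rw [e5, e3] at e4
      have := congrArg cs.length e4
      rw [l3, l2] at this
      omega
    · have e7 : Δ.δ (x • V1) (x • Y) = cs.simple j * (cs.simple i * cs.simple j * cs.simple i) := by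
        rw [← e3]
        refine Δ.step_lt_left (Δ.δ_symm_simple e5) ?_
        rw [e3, ← mul_assoc, ← mul_assoc, l4', l3]
        omega
      rw [e4] at e7
      have := congrArg cs.length e7
      rw [← mul_assoc, ← mul_assoc, l4', l2] at this
      omega
  · -- case β
    change Opp V at hVopp
    have hV'opp : Opp V' := hOppI hVopp (Δ.mem_Pan_of_δ hVV')
    -- a chamber of the panel at distance `w0` from `Y` and `Y2`
    have huniq : ∀ {Z D D' : C}, D ∈ Δ.Pan i D0 → D' ∈ Δ.Pan i D0 → D ≠ D' →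
        Δ.δ D Z = cs.simple j * cs.simple i * cs.simple j → Δ.δ D' Z = cs.simple j * cs.simple i * cs.simple j →
        False := by
      intro Z D D' hD hD' hne h1 h2
      have h4 : Δ.δ D' Z = cs.simple i * (cs.simple j * cs.simple i * cs.simple j) := by
        rw [← h1]
        refine Δ.step_lt_left (Δ.δ_eq_of_mem_Pan hD' hD (Ne.symm hne)) ?_
        rw [h1, ← mul_assoc, ← mul_assoc, l4, l3']
        omega
      rw [h2] at h4
      have := congrArg cs.length h4
      rw [← mul_assoc, ← mul_assoc, l4, l3'] at this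
      omega
    obtain ⟨D, hD, hDY, hDY2⟩ : ∃ D ∈ Δ.Pan i D0,
        Δ.δ D Y = cs.simple j * cs.simple i * cs.simple j * cs.simple i ∧
        Δ.δ D Y2 = cs.simple j * cs.simple i * cs.simple j * cs.simple i := by
      by_contra hcon
      push Not at hcon
      obtain ⟨z1, z2, h12, hz1, hz2⟩ := hth D0 i
      have hz1' : z1 ∈ Δ.Pan i D0 := Δ.mem_Pan_of_δ hz1
      have hz2' : z2 ∈ Δ.Pan i D0 := Δ.mem_Pan_of_δ hz2
      have hz0' : D0 ∈ Δ.Pan i D0 := Δ.self_mem_Pan i D0
      have n01 : D0 ≠ z1 := Δ.ne_of_δ_simple hz1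
      have n02 : D0 ≠ z2 := Δ.ne_of_δ_simple hz2
      have hor : ∀ D ∈ Δ.Pan i D0, Δ.δ D Y = cs.simple j * cs.simple i * cs.simple j ∨
          Δ.δ D Y2 = cs.simple j * cs.simple i * cs.simple j := by
        intro D hD
        rcases hYopp D hD with h | h
        · exact Or.inl h
        · rcases hY2opp D hD with h' | h'
          · exact Or.inr h'
          · exact absurd h' (hcon D hD h)
      rcases hor D0 hz0' with a0 | a0 <;> rcases hor z1 hz1' with a1 | a1 <;> rcases hor z2 hz2' with a2 | a2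
      · exact huniq hz0' hz1' n01 a0 a1
      · exact huniq hz0' hz1' n01 a0 a1
      · exact huniq hz0' hz2' n02 a0 a2
      · exact huniq hz1' hz2' h12 a1 a2
      · exact huniq hz1' hz2' h12 a1 a2
      · exact huniq hz0' hz2' n02 a0 a2
      · exact huniq hz0' hz1' n01 a0 a1
      · exact huniq hz0' hz1' n01 a0 a1
    -- gates
    let Gt : C → C → Prop := fun F' Z => F' ∈ Δ.Pan j D ∧ F' ≠ D ∧ Δ.δ F' Z = cs.simple j * Δ.δ D Z
    have hgt : ∀ {Z : C}, Opp Z → ∃ F', Gt F' Z := by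
      intro Z hZ
      obtain ⟨F', hF1, hF2⟩ : ∃ F', Δ.δ D F' = cs.simple j ∧ Δ.δ F' Z = cs.simple j * Δ.δ D Z := by
        rcases hZ D hD with h | h
        · obtain ⟨F', h1, h2⟩ := Δ.exists_between (v := cs.simple j) (w := cs.simple i * cs.simple j)
            (by rw [h, mul_assoc]) (by rw [← mul_assoc, l3', l1', l2])
          exact ⟨F', h1, by rw [h2, h, mul_assoc, ← mul_assoc (cs.simple j) (cs.simple j), htt, one_mul]⟩
        · obtain ⟨F', h1, h2⟩ := Δ.exists_between (v := cs.simple j) (w := cs.simple i * cs.simple j * cs.simple i)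
            (by rw [h, mul_assoc, mul_assoc, mul_assoc]) (by rw [← mul_assoc, ← mul_assoc, l4', l1', l3])
          refine ⟨F', h1, ?_⟩
          rw [h2, h, mul_assoc (cs.simple j), mul_assoc (cs.simple j), ← mul_assoc (cs.simple j) (cs.simple j), htt,
            one_mul, mul_assoc]
      exact ⟨F', Δ.mem_Pan_of_δ hF1, (Δ.ne_of_δ_simple hF1).symm, hF2⟩
    -- `i`-adjacent chambers
    have hG1 : ∀ {F' Z Z' : C}, Gt F' Z → Opp Z → Opp Z' → Z' ∈ Δ.Pan i Z → Gt F' Z' := by
      rintro F' Z Z' ⟨h1, h2, h4⟩ hZ hZ' hZZ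
      refine ⟨h1, h2, ?_⟩
      have h5 : Δ.δ F' Z' = cs.simple i * cs.simple j ∨ Δ.δ F' Z' = cs.simple i * cs.simple j * cs.simple i := by
        have h6 : Δ.δ F' Z = cs.simple i * cs.simple j ∨ Δ.δ F' Z = cs.simple i * cs.simple j * cs.simple i := by
          rcases hZ D hD with h | h
          · left; rw [h4, h, mul_assoc (cs.simple j), ← mul_assoc (cs.simple j) (cs.simple j), htt, one_mul]
          · right
            rw [h4, h, mul_assoc (cs.simple j), mul_assoc (cs.simple j), ← mul_assoc (cs.simple j) (cs.simple j), htt,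
              one_mul, mul_assoc]
        rcases hZZ with rfl | hZZ
        · exact h6
        · rcases h6 with h6 | h6
          · right; exact Δ.δ_mul_of h6 hZZ (by rw [l3, l2, l1])
          · rcases Δ.step F' Z Z' i hZZ with h7 | h7
            · left; rw [h7, h6, mul_assoc _ (cs.simple i), hss, mul_one]
            · right; rw [h7, h6]
      have h6 : Δ.δ D Z' = cs.simple j * Δ.δ F' Z' := by
        refine Δ.step_lt_left (Δ.δ_eq_of_mem_Pan (Δ.self_mem_Pan j D) h1 (Ne.symm h2)) ?_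
        rcases h5 with h5 | h5
        · rw [h5, ← mul_assoc, l3', l2]; omega
        · rw [h5, ← mul_assoc, ← mul_assoc, l4', l3]; omega
      rw [h6, ← mul_assoc, htt, one_mul]
    -- `j`-adjacent chambers
    have hG2 : ∀ {F' Z Z' : C}, Gt F' Z → Gt F' Z' → Opp Z' →
        Δ.δ D Z = cs.simple j * cs.simple i * cs.simple j * cs.simple i → Δ.δ Z Z' = cs.simple j → False := by
      rintro F' Z Z' ⟨-, -, h4⟩ ⟨-, -, h4'⟩ hZ' hDZ hZZ
      have h5 : Δ.δ F' Z = cs.simple i * cs.simple j * cs.simple i := by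
        rw [h4, hDZ, mul_assoc (cs.simple j), mul_assoc (cs.simple j), ← mul_assoc (cs.simple j) (cs.simple j), htt,
          one_mul, mul_assoc]
      have h6 : Δ.δ F' Z' = cs.simple i * cs.simple j * cs.simple i * cs.simple j :=
        Δ.δ_mul_of h5 hZZ (by rw [l4, l3, l1'])
      rw [h4'] at h6
      have h7 := congrArg cs.length h6
      rw [l4] at h7
      rcases hZ' D hD with h | h
      · rw [h, mul_assoc (cs.simple j), ← mul_assoc (cs.simple j) (cs.simple j), htt, one_mul, l2] at h7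
        omega
      · rw [h, mul_assoc (cs.simple j), mul_assoc (cs.simple j), ← mul_assoc (cs.simple j) (cs.simple j), htt,
          one_mul, l3] at h7
        omega
    obtain ⟨F1, hF1⟩ := hgt hYopp
    have hxD := hRfix D hD
    have hxF1 : Gt (x • F1) (x • Y) := by
      refine ⟨?_, ?_, ?_⟩
      · have := smul_mem_Pan S (g := x) hF1.1
        rwa [hxD] at this
      · intro h
        rw [← hxD] at h
        exact hF1.2.1 (smul_left_cancel x (h.trans (by rw [hxD])))
      · have h1 : Δ.δ D (x • Y) = Δ.δ D Y := by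
          conv_lhs => rw [← hxD]
          exact S.iso x D Y
        rw [S.iso, h1]
        exact hF1.2.2
    have hxne : x • F1 ≠ F1 := hB D hD F1 hF1.1 hF1.2.1
    obtain ⟨F2, hF2⟩ := hgt hVopp
    -- three chambers
    have hF2' : F2 = x • F1 := by
      have h4 := h3 D
      have : Fintype {X // X ∈ Δ.Pan j D} := Fintype.ofFinite _
      rw [Nat.card_eq_fintype_card, ← Finset.card_univ] at h4
      let r0 : {X // X ∈ Δ.Pan j D} := ⟨D, Δ.self_mem_Pan j D⟩
      let r1 : {X // X ∈ Δ.Pan j D} := ⟨F1, hF1.1⟩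
      let r2 : {X // X ∈ Δ.Pan j D} := ⟨x • F1, hxF1.1⟩
      let r3 : {X // X ∈ Δ.Pan j D} := ⟨F2, hF2.1⟩
      by_contra hne
      have n13 : F2 ≠ F1 := by
        rintro rfl
        exact hG2 hF1 hF2 hVopp hDY hV
      have h5 : ({r0, r1, r2, r3} : Finset {X // X ∈ Δ.Pan j D}).card = 4 := by
        rw [Finset.card_insert_of_notMem, Finset.card_insert_of_notMem, Finset.card_insert_of_notMem,
          Finset.card_singleton]
        · simp only [Finset.mem_singleton]
          exact fun h => hne (congrArg Subtype.val h).symm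
        · simp only [Finset.mem_insert, Finset.mem_singleton, not_or]
          exact ⟨fun h => hxne (congrArg Subtype.val h).symm, fun h => n13 (congrArg Subtype.val h).symm⟩
        · simp only [Finset.mem_insert, Finset.mem_singleton, not_or]
          exact ⟨fun h => hF1.2.1 (congrArg Subtype.val h).symm, fun h => hxF1.2.1 (congrArg Subtype.val h).symm,
            fun h => hF2.2.1 (congrArg Subtype.val h).symm⟩
      have h6 := Finset.card_le_card (Finset.subset_univ ({r0, r1, r2, r3} : Finset {X // X ∈ Δ.Pan j D}))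
      omega
    rw [hF2'] at hF2
    have g1 := hG1 hF2 hVopp hV'opp (Δ.mem_Pan_of_δ hVV')
    have g2 := hG1 hxF1 hY'opp hY2opp (Δ.mem_Pan_symm (Δ.mem_Pan_of_δ hY2'))
    exact hG2 g2 g1 hV'opp hDY2 (Δ.δ_symm_simple hV'2)

end Cfsg.Agent.H197.Cls
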