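import Mathlib
import Cfsg.Agent.H197.Cls.NoW0
import Cfsg.Agent.H197.Cls.SSet
import Cfsg.Agent.H27.AH.Defs

/-!
# S2451, helper197: `NotC` from `Dis ⊆ {1}`, diagrams connected by simple bonds
-/

set_option autoImplicit false
set_option linter.unusedSectionVars false
set_option linter.unusedVariables false

open scoped Pointwise

namespace Cfsg.Agent.H197.Cls

open Cfsg.Agent.Tits.Core Cfsg.Agent.Tits.Core.Bldg Cfsg.Agent.Tits.Exchange Cfsg.Agent.Tits Cfsg.Agent.FixBN
  Cfsg.Agent.H330.ClassProd Cfsg.Agent.H27.AH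

/-- the diagram is connected by simple bonds -/
def Conn3 {I : Type*} (M : CoxeterMatrix I) : Prop :=
  ∀ P : I → Prop, (∀ i j, M i j = 3 → P i → P j) → (∃ i, P i) → ∀ i, P i

theorem conn3_E6 : Conn3 CoxeterMatrix.E₆ := by
  intro P h hex
  have s : ∀ i j, CoxeterMatrix.E₆ i j = 3 → (P i ↔ P j) := fun i j hij =>
    ⟨h i j hij, h j i (by rw [CoxeterMatrix.symmetric]; exact hij)⟩
  have h02 := s 0 2 rfl
  have h13 := s 1 3 rfl
  have h23 := s 2 3 rfl
  have h34 := s 3 4 rfl
  have h45 := s 4 5 rfl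
  have key : ∀ i, P i ↔ P 3 := by
    intro i
    fin_cases i
    · exact h02.trans h23
    · exact h13
    · exact h23
    · exact Iff.rfl
    · exact h34.symm
    · exact h45.symm.trans h34.symm
  obtain ⟨i, hi⟩ := hex
  exact fun j => (key j).2 ((key i).1 hi)

theorem conn3_E7 : Conn3 CoxeterMatrix.E₇ := by
  intro P h hex
  have s : ∀ i j, CoxeterMatrix.E₇ i j = 3 → (P i ↔ P j) := fun i j hij =>
    ⟨h i j hij, h j i (by rw [CoxeterMatrix.symmetric]; exact hij)⟩
  have h02 := s 0 2 rfl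
  have h13 := s 1 3 rfl
  have h23 := s 2 3 rfl
  have h34 := s 3 4 rfl
  have h45 := s 4 5 rfl
  have h56 := s 5 6 rfl
  have key : ∀ i, P i ↔ P 3 := by
    intro i
    fin_cases i
    · exact h02.trans h23
    · exact h13
    · exact h23
    · exact Iff.rfl
    · exact h34.symm
    · exact h45.symm.trans h34.symm
    · exact h56.symm.trans (h45.symm.trans h34.symm)
  obtain ⟨i, hi⟩ := hex
  exact fun j => (key j).2 ((key i).1 hi)

theorem conn3_E8 : Conn3 CoxeterMatrix.E₈ := by
  intro P h hex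
  have s : ∀ i j, CoxeterMatrix.E₈ i j = 3 → (P i ↔ P j) := fun i j hij =>
    ⟨h i j hij, h j i (by rw [CoxeterMatrix.symmetric]; exact hij)⟩
  have h02 := s 0 2 rfl
  have h13 := s 1 3 rfl
  have h23 := s 2 3 rfl
  have h34 := s 3 4 rfl
  have h45 := s 4 5 rfl
  have h56 := s 5 6 rfl
  have h67 := s 6 7 rfl
  have key : ∀ i, P i ↔ P 3 := by
    intro i
    fin_cases i
    · exact h02.trans h23
    · exact h13
    · exact h23
    · exact Iff.rfl
    · exact h34.symm
    · exact h45.symm.trans h34.symm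
    · exact h56.symm.trans (h45.symm.trans h34.symm)
    · exact h67.symm.trans (h56.symm.trans (h45.symm.trans h34.symm))
  obtain ⟨i, hi⟩ := hex
  exact fun j => (key j).2 ((key i).1 hi)

theorem good_of_allConj {G : Type*} [Group G] {p : ℕ} {a b c : G} (h : AllConj a b c)
    (hc : ∃ k : ℕ, orderOf c = p ^ k) : Good p a b := by
  intro g
  obtain ⟨k, hk⟩ := hc
  have h1 := h 1 g
  obtain ⟨x, hx⟩ := isConj_iff.1 h1
  have h2 : PE p c := ⟨k, by rw [← hk]; exact pow_orderOf_eq_one c⟩
  have h3 := h2.conj x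
  rw [hx] at h3
  simpa using h3

variable {I : Type*} {M : CoxeterMatrix I} {W : Type*} [Group W] {cs : CoxeterSystem M W} {C : Type*}

local prefix:100 "ℓ" => cs.length

variable {Δ : Bldg cs C} {G : Type*} [Group G] [MulAction G C] {p : ℕ} (S : Sys Δ G p)

include S

variable [hp : Fact p.Prime] [F : OppRes.Cox cs]

/-- `1 ∈ Dis`, no reflection in `Dis`: `a` or `b` is trivial if the diagram is connected by simple bonds -/
theorem false_of_one_mem (hfaith : ∀ g : G, (∀ c : C, g • c = c) → g = 1) (hconn : Conn3 M)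
    {a b : G} (ha : a ≠ 1) (hb : b ≠ 1) (h1 : (1 : W) ∈ Dis Δ a b) (hs : ∀ i, cs.simple i ∉ Dis Δ a b) : False := by
  obtain ⟨⟨c, hc⟩, d, hd⟩ := h1
  have hc' : a • c = c := by
    have := Δ.eq_of_δ_eq_one hc
    rw [eq_inv_smul_iff] at this
    exact this
  have hd' : b • d = d := (Δ.eq_of_δ_eq_one hd).symm
  have hmv : ∀ {x : G} {c : C}, x ≠ 1 → x • c = c → ∃ i, Mv Δ i x := by
    intro x c hx hxc
    have : ∃ e : C, x • e ≠ e := by
      by_contra hcon
      push Not at hcon
      exact hx (hfaith x hcon)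
    obtain ⟨e, he⟩ := this
    exact exists_mv hxc he
  have h2 := hconn (fun i => Mv Δ i a) (fun i j hij h => mv_of_m3 S hij h) (hmv ha hc')
  obtain ⟨i, hi⟩ := hmv hb hd'
  exact hs i ⟨delta_of_mv S (Mv.inv S (h2 i)), delta_of_mv S hi⟩

theorem notC_of_sys [Finite C] (hfaith : ∀ g : G, (∀ c : C, g • c = c) → g = 1) (hconn : Conn3 M)
    (hdis : ∀ a b : G, Good p a b → ∀ w ∈ Dis Δ a b, w = 1) : NotC p G := by
  intro a b c ha hb hc hall hord
  have hgood := good_of_allConj hall hord
  obtain ⟨w, hw⟩ := dis_nonempty S hgood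
  have h1 := hdis a b hgood w hw
  rw [h1] at hw
  refine false_of_one_mem S hfaith hconn ha hb hw fun i hi => ?_
  have h2 := hdis a b hgood _ hi
  have h3 := congrArg cs.length h2
  rw [cs.length_simple, cs.length_one] at h3
  omega

end Cfsg.Agent.H197.Cls
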