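import Mathlib
import Cfsg.Agent.H197.Cls.DisW
import Cfsg.Agent.H772.Cls.StarD
import Cfsg.Agent.H772.Cls.StarC

/-!
# S2451, helper197: minimal common displacements

* `exists_minJ` : a shortest element of `Dis Δ a b` different from `1` is `w_J`, `w_J` central in `W_J`;
* `MinJ.not_both` : `J` contains no simple bond;
* `MinJ.star` : if `i ∈ J`, `j ∉ J` are joined by a simple bond, another node of `J` is joined to `i` or `j`.
-/

set_option autoImplicit false
set_option linter.unusedSectionVars false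
set_option linter.unusedVariables false

open scoped Pointwise

namespace Cfsg.Agent.H197.Cls

open Cfsg.Agent.Tits.Core Cfsg.Agent.Tits.Core.Bldg Cfsg.Agent.Tits.Exchange Cfsg.Agent.Tits Cfsg.Agent.FixBN

variable {I : Type*} {M : CoxeterMatrix I} {W : Type*} [Group W] {cs : CoxeterSystem M W} {C : Type*}

local prefix:100 "ℓ" => cs.length

/-- `w_J` is a shortest common displacement different from `1` -/
structure MinJ (Δ : Bldg cs C) {G : Type*} [Group G] [MulAction G C] (a b : G) (J : Set I) : Prop where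
  mem : wJ cs J ∈ Dis Δ a b
  ne : wJ cs J ≠ 1
  comm : ∀ i ∈ J, cs.simple i * wJ cs J = wJ cs J * cs.simple i
  min : ∀ u ∈ Dis Δ a b, u ≠ 1 → ℓ (wJ cs J) ≤ ℓ u

variable {Δ : Bldg cs C} {G : Type*} [Group G] [MulAction G C] {p : ℕ} (S : Sys Δ G p)

section

variable [F : OppRes.Cox cs]

theorem wJ_lt {J : Set I} {i : I} (hi : i ∈ J) : ℓ (wJ cs J * cs.simple i) < ℓ (wJ cs J) := by
  have h1 := F.len_wJ_mul (J := J) (simple_mem_WJ cs hi)
  have h2 := cs.length_simple i
  omega

theorem lt_of_not_mem {J : Set I} {i : I} (hi : i ∉ J) {u : W} (hu : u ∈ WJ cs J) : ℓ u < ℓ (u * cs.simple i) := by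
  by_contra h
  apply hi
  refine F.descent_mem J u hu i ?_
  rcases cs.length_mul_simple u i with h1 | h1 <;> omega

theorem MinJ.nonempty {a b : G} {J : Set I} (h : MinJ Δ a b J) : J.Nonempty := by
  by_contra hJ
  rw [Set.not_nonempty_iff_eq_empty] at hJ
  subst hJ
  have h1 := F.wJ_mem (∅ : Set I)
  unfold WJ at h1
  rw [Set.image_empty, Subgroup.closure_empty, Subgroup.mem_bot] at h1
  exact h.ne h1

/-- every element of a set of commuting generators -/
theorem MinJ.cases_comm {J : Set I} {i : I} (hi : i ∈ J) (hc : ∀ k ∈ J, k ≠ i → M k i = 2) :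
    wJ cs J = wJ cs (J \ {i}) * cs.simple i := by
  have hcs : ∀ k ∈ J \ {i}, cs.simple k * cs.simple i = cs.simple i * cs.simple k := by
    rintro k ⟨hk, hki⟩
    have h1 := cs.simple_mul_simple_pow k i
    rw [hc k hk (by simpa using hki)] at h1
    have h2 : (cs.simple k * cs.simple i)⁻¹ = cs.simple k * cs.simple i := by
      rw [inv_eq_iff_mul_eq_one, ← pow_two]; exact h1
    rw [mul_inv_rev, cs.inv_simple, cs.inv_simple] at h2
    exact h2.symm
  have hall : ∀ u ∈ WJ cs (J \ {i}), u * cs.simple i = cs.simple i * u := fun u hu =>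
    H772.Cls.comm_of_mem hcs hu
  symm
  refine F.eq_wJ_of_descents (mul_mem (WJ_mono cs Set.sdiff_subset (F.wJ_mem _)) (simple_mem_WJ cs hi)) ?_
  have hn : i ∉ J \ {i} := by simp
  have h0 := lt_of_not_mem (cs := cs) hn (F.wJ_mem (J \ {i}))
  intro j hj
  rcases eq_or_ne j i with rfl | hji
  · rw [mul_assoc, cs.simple_mul_simple_self, mul_one]
    exact h0
  · have hj' : j ∈ J \ {i} := ⟨hj, by simpa using hji⟩
    have e : wJ cs (J \ {i}) * cs.simple i * cs.simple j = wJ cs (J \ {i}) * cs.simple j * cs.simple i := by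
      rw [mul_assoc, ← hcs j hj', mul_assoc]
    rw [e]
    have h1 := wJ_lt (cs := cs) hj'
    have h2 := cs.length_mul_simple (wJ cs (J \ {i}) * cs.simple j) i
    omega

end

include S

variable [hp : Fact p.Prime] [F : OppRes.Cox cs] [Finite C]

theorem exists_minJ (hth : Δ.Thick) {a b : G} (hab : Good p a b) {v : W} (hv : v ∈ Dis Δ a b) (hv1 : v ≠ 1) :
    ∃ J : Set I, MinJ Δ a b J := by
  classical
  have hne : ∃ n, ∃ w ∈ Dis Δ a b, w ≠ 1 ∧ ℓ w = n := ⟨_, v, hv, hv1, rfl⟩
  obtain ⟨w, hw, hw1, hwn⟩ := Nat.find_spec hne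
  have hmin : ∀ u ∈ Dis Δ a b, u ≠ 1 → ℓ w ≤ ℓ u := fun u hu hu1 => by
    rw [hwn]; exact Nat.find_min' hne ⟨u, hu, hu1, rfl⟩
  obtain ⟨J, h1, h2, h3⟩ := eq_wJ_of_comm (cs := cs) (w := w) (by
    intro i hi
    by_contra hcon
    obtain ⟨h4, h5⟩ := dis_simple S hth hab hw hcon
    have h6 : cs.simple i * w * cs.simple i ≠ 1 := by
      intro h7
      apply hw1
      calc w = cs.simple i * (cs.simple i * w * cs.simple i) * cs.simple i := by
            rw [← mul_assoc, ← mul_assoc, cs.simple_mul_simple_self, one_mul, mul_assoc, cs.simple_mul_simple_self,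
              mul_one]
        _ = 1 := by rw [h7, mul_one, cs.simple_mul_simple_self]
    have h7 := hmin _ h4 h6
    rcases h5 with ⟨h8, h9, h10⟩ | ⟨h8, -, -⟩
    · rcases hi with hi | hi <;> omega
    · omega)
  exact ⟨J, by rw [← h1]; exact hw, by rw [← h1]; exact hw1, h3, by rw [← h1]; exact hmin⟩

/-- `J` contains no simple bond -/
theorem MinJ.not_both (hth : Δ.Thick) {a b : G} {J : Set I} (h : MinJ Δ a b J) {i j : I} (hM : M i j = 3)
    (hi : i ∈ J) (hj : j ∈ J) : False := by
  have h1 := H772.Cls.star_c S hth hM h.mem (h.comm i hi) (h.comm j hj) (wJ_lt hi) (wJ_lt hj)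
  have h2 : wJ cs J * cs.simple i ≠ 1 := by
    intro h3
    have h4 : wJ cs J = cs.simple i := by
      rw [mul_eq_one_iff_eq_inv, cs.inv_simple] at h3; exact h3
    have h5 := wJ_lt (cs := cs) hj
    rw [h4, cs.length_simple] at h5
    have h6 : cs.simple i * cs.simple j = 1 := cs.length_eq_zero_iff.1 (by omega)
    have h7 := cs.simple_mul_simple_pow i j
    have h8 : cs.simple j = cs.simple i := by
      rw [mul_eq_one_iff_eq_inv, cs.inv_simple] at h6; exact h6.symm
    have h9 := len_jij (cs := cs) hM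
    have h10 := h9.1
    rw [h8, cs.simple_mul_simple_self, cs.length_one] at h10
    omega
  have h3 := h.min _ h1 h2
  have h4 := wJ_lt (cs := cs) hi
  omega

/-- a node of `J` at the end of a simple bond -/
theorem MinJ.star (hth : Δ.Thick) {a b : G} (hab : Good p a b) {J : Set I} (h : MinJ Δ a b J) {i j : I}
    (hM : M i j = 3) (hi : i ∈ J) (hc : ∀ k ∈ J, k ≠ i → M k i = 2 ∧ M k j = 2) : False := by
  have hj : j ∉ J := fun hj => h.not_both S hth hM hi hj
  have e := MinJ.cases_comm (cs := cs) hi fun k hk hki => (hc k hk hki).1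
  have hcomm : ∀ {k l : I}, M k l = 2 → cs.simple l * cs.simple k = cs.simple k * cs.simple l := by
    intro k l h1
    have h3 := cs.simple_mul_simple_pow k l
    rw [h1] at h3
    have h2 : (cs.simple k * cs.simple l)⁻¹ = cs.simple k * cs.simple l := by
      rw [inv_eq_iff_mul_eq_one, ← pow_two]; exact h3
    rw [mul_inv_rev, cs.inv_simple, cs.inv_simple] at h2
    exact h2
  have h1 : ∀ u ∈ WJ cs (J \ {i}), u * cs.simple i = cs.simple i * u := fun u hu =>
    H772.Cls.comm_of_mem (fun k hk => (hcomm (hc k hk.1 (by simpa using hk.2)).1).symm) hu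
  have h2 : ∀ u ∈ WJ cs (J \ {i}), u * cs.simple j = cs.simple j * u := fun u hu =>
    H772.Cls.comm_of_mem (fun k hk => (hcomm (hc k hk.1 (by simpa using hk.2)).2).symm) hu
  refine H772.Cls.star_d S hth hab hM (u := wJ cs (J \ {i})) (h1 _ (F.wJ_mem _)).symm (h2 _ (F.wJ_mem _)).symm
    (lt_of_not_mem (by simp) (F.wJ_mem _)) (lt_of_not_mem (fun h3 => hj h3.1) (F.wJ_mem _)) ?_
  rw [← e]
  exact h.mem

end Cfsg.Agent.H197.Cls
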