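import Mathlib
import Cfsg.Agent.H197.Cls.MinDis
import Cfsg.Agent.H197.Cls.Fin
import Cfsg.Agent.H150.AH.Quad
import Cfsg.Agent.H150.AH.Same
import Cfsg.Agent.H82.AH.Rig

/-!
# S2451, helper197: a double bond as minimal common displacement, type `F₄`

* `quad_min` : `w_ij`, `m_ij = 4`, is not a shortest common displacement `≠ 1` if `1` is not a common displacement;
* `quad_one` : the same if the `j`-panels have three chambers and no simple reflection is a common displacement;
* `f4_le_one` : type `F₄`: `Dis ⊆ {1}` if the common displacements are `1` or `w0` or if the panels of node `1` have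
  three chambers.
-/

set_option autoImplicit false
set_option linter.unusedSectionVars false
set_option linter.unusedVariables false

open scoped Pointwise

namespace Cfsg.Agent.H197.Cls

open Cfsg.Agent.Tits.Core Cfsg.Agent.Tits.Core.Bldg Cfsg.Agent.Tits.Exchange Cfsg.Agent.Tits Cfsg.Agent.FixBN
  Cfsg.Agent.H150.AH

variable {I : Type*} {M : CoxeterMatrix I} {W : Type*} [Group W] {cs : CoxeterSystem M W} {C : Type*}

local prefix:100 "ℓ" => cs.length

variable {Δ : Bldg cs C} {G : Type*} [Group G] [MulAction G C] {p : ℕ} (S : Sys Δ G p)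

section

variable [Finite I] [Finite W]

theorem len_w4 {i j : I} (hM : M i j = 4) : ℓ (wJ cs {i, j}) = 4 := by
  have hij : i ≠ j := by rintro rfl; rw [M.diagonal] at hM; omega
  rw [Generic.wJ_four cs hij hM, Generic.length_four cs hij hM]

theorem w4_comm {i j : I} (hM : M i j = 4) : cs.simple i * wJ cs {i, j} = wJ cs {i, j} * cs.simple i ∧
    cs.simple j * wJ cs {i, j} = wJ cs {i, j} * cs.simple j ∧
    wJ cs {i, j} * cs.simple i = cs.simple j * cs.simple i * cs.simple j ∧
    wJ cs {i, j} * cs.simple j = cs.simple i * cs.simple j * cs.simple i ∧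
    wJ cs {i, j} = cs.simple j * cs.simple i * cs.simple j * cs.simple i := by
  have hij : i ≠ j := by rintro rfl; rw [M.diagonal] at hM; omega
  have hss : ∀ k, cs.simple k * cs.simple k = 1 := cs.simple_mul_simple_self
  have h1 := Generic.wJ_four cs hij hM
  have hb := Generic.braid_four cs hM
  have h2 : wJ cs {i, j} = cs.simple j * cs.simple i * cs.simple j * cs.simple i := by rw [h1, hb]
  have e3 : wJ cs {i, j} * cs.simple i = cs.simple j * cs.simple i * cs.simple j := by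
    rw [h2, mul_assoc, hss, mul_one]
  have e4 : wJ cs {i, j} * cs.simple j = cs.simple i * cs.simple j * cs.simple i := by
    rw [h1, mul_assoc, hss, mul_one]
  refine ⟨?_, ?_, e3, e4, h2⟩
  · rw [e3, h1]
    simp only [← mul_assoc]
    rw [hss, one_mul]
  · rw [e4, h2]
    simp only [← mul_assoc]
    rw [hss, one_mul]

omit [Finite I] [Finite W] in
theorem mem_of_min {a b : G} {J : Set I} (h : MinJ Δ a b J) {u : W} (hu : u ≠ 1) (hl : ℓ u < ℓ (wJ cs J)) :
    u ∉ Dis Δ a b := fun hu' => by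
  have := h.min u hu' hu
  omega

end

include S

variable [hp : Fact p.Prime] [Finite I] [Finite W] [Finite C]

theorem quad_roles (hth : Δ.Thick) {a b : G} (hab : Good p a b) {i j : I} (hM : M i j = 4)
    (h : MinJ Δ a b {i, j}) :
    (RoleE Δ a⁻¹ i (wJ cs {i, j}) ∧ RoleO Δ b i (wJ cs {i, j}) ∧ RoleO Δ a⁻¹ j (wJ cs {i, j}) ∧
        RoleE Δ b j (wJ cs {i, j})) ∨
      (RoleO Δ a⁻¹ i (wJ cs {i, j}) ∧ RoleE Δ b i (wJ cs {i, j}) ∧ RoleE Δ a⁻¹ j (wJ cs {i, j}) ∧
        RoleO Δ b j (wJ cs {i, j})) := by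
  have hij : i ≠ j := by rintro rfl; rw [M.diagonal] at hM; omega
  obtain ⟨hi, hj, e3, e4, e5⟩ := w4_comm (cs := cs) hM
  have l4 := len_w4 (cs := cs) hM
  have l3 := Generic.length_three cs hij (by omega)
  have l3' := Generic.length_three cs hij.symm (by rw [M.symmetric]; omega)
  refine roles_mixed S hth hab hij (by omega) hi hj h.mem (mem_of_min h ?_ ?_) (mem_of_min h ?_ ?_)
  · rw [e3]
    intro h1
    rw [h1, cs.length_one] at l3'
    omega
  · rw [e3]; omega
  · rw [e4]
    intro h1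
    rw [h1, cs.length_one] at l3
    omega
  · rw [e4]; omega

/-- `1 ∉ Dis` : a double bond is not minimal -/
theorem quad_min [Finite G] (hth : Δ.Thick) {a b : G} (hab : Good p a b) {i j : I} (hM : M i j = 4)
    (h : MinJ Δ a b {i, j}) (h1 : (1 : W) ∉ Dis Δ a b) : False := by
  have hij : i ≠ j := by rintro rfl; rw [M.diagonal] at hM; omega
  have hM' : M j i = 4 := by rw [M.symmetric]; exact hM
  have l4 := len_w4 (cs := cs) hM
  have hmin : ∀ u ∈ WJ cs {i, j}, (1 : W) * u ∈ Dis Δ a b → u = wJ cs {i, j} := by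
    intro u hu hd
    rw [one_mul] at hd
    have hu1 : u ≠ 1 := by rintro rfl; exact h1 hd
    have h2 := h.min u hd hu1
    have F : OppRes.Cox cs := OppRes.instCox
    have h3 := F.len_wJ_mul hu
    have h4 : ℓ (wJ cs {i, j} * u) = 0 := by omega
    have h5 := cs.length_eq_zero_iff.1 h4
    have h6 := eq_inv_of_mul_eq_one_right h5
    rw [h6, F.wJ_inv]
  have c1 : ∀ k : I, cs.simple k * 1 = 1 * cs.simple k := fun k => by rw [mul_one, one_mul]
  have c2 : ∀ k : I, ℓ (1 : W) < ℓ (1 * cs.simple k) := fun k => by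
    rw [one_mul, cs.length_one, cs.length_simple]; omega
  have hr : ∀ {x : G} {k : I} {v : W}, RoleO Δ x k v → Role1 Δ x k v := fun hx E hE => hx E (Or.inl hE)
  rcases quad_roles S hth hab hM h with ⟨-, h2, h3, -⟩ | ⟨h2, -, -, h3⟩
  · exact quad_false S hth hab hij hM (m := 1) (c1 i) (c1 j) (c2 i) (c2 j) (by rw [one_mul]; exact h.mem) hmin
      (by rw [one_mul]; exact hr h3) (by rw [one_mul]; exact hr h2)
  · refine quad_false S hth hab hij.symm hM' (m := 1) (c1 j) (c1 i) (c2 j) (c2 i) ?_ ?_ ?_ ?_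
    · rw [one_mul, Set.pair_comm]; exact h.mem
    · rw [Set.pair_comm]; exact hmin
    · rw [one_mul, Set.pair_comm]; exact hr h2
    · rw [one_mul, Set.pair_comm]; exact hr h3

/-- `p`-elements, panels of three chambers at the node `j`: a double bond is not minimal -/
theorem quad_one (hth : Δ.Thick) {a b : G} (hab : Good p a b) {i j : I} (hM : M i j = 4)
    (h : MinJ Δ a b {i, j}) (h3 : ∀ c : C, Nat.card {D // D ∈ Δ.Pan j c} = 3) (ha : PE p a) (hb : PE p b) : False := by
  obtain ⟨-, -, e3, -, e5⟩ := w4_comm (cs := cs) hM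
  obtain ⟨⟨c, hc⟩, d, hd⟩ := h.mem
  rcases quad_roles S hth hab hM h with ⟨h2, -, -, -⟩ | ⟨-, h2, -, -⟩
  · refine no_w0 S hth (x := a⁻¹) ?_ hM h3 (fun E => ?_) c (by rw [hc, e5])
    · obtain ⟨k, hk⟩ := ha
      exact ⟨k, by rw [inv_pow, hk, inv_one]⟩
    · rw [← e3]; exact h2 E
  · refine no_w0 S hth (x := b) hb hM h3 (fun E => ?_) d (by rw [hd, e5])
    rw [← e3]; exact h2 E

omit [Finite C] in
/-- `1 ∈ Dis`, no simple reflection in `Dis` -/
theorem pe_of_one_mem' [Finite G] (hth : Δ.Thick) (hfaith : ∀ g : G, (∀ c : C, g • c = c) → g = 1) {a b : G}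
    (hab : Good p a b) (h1 : (1 : W) ∈ Dis Δ a b) (hs : ∀ i, cs.simple i ∉ Dis Δ a b) : PE p a ∧ PE p b := by
  obtain ⟨g, c, hc, hcb⟩ := exists_pair S hth h1
  have hc' : a⁻¹ • c = c := (Δ.eq_of_δ_eq_one hc).symm
  have hac : a • c = c := by rw [inv_smul_eq_iff] at hc'; exact hc'.symm
  rw [hc'] at hcb
  have key : ∀ i, (∀ y ∈ Δ.Pan i c, a • y = y) ∨ ∀ y ∈ Δ.Pan i c, (g * b * g⁻¹) • y = y := by
    intro i
    by_contra hcon
    push Not at hcon
    obtain ⟨⟨y, hy, hy'⟩, z, hz, hz'⟩ := hcon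
    apply hs i
    rw [← dis_conj S g]
    have hmv : ∀ {x : G} {y : C}, x • c = c → y ∈ Δ.Pan i c → x • y ≠ y → Mv Δ i x := by
      intro x y hx hy hxy
      rcases hy with rfl | hy
      · exact absurd hx hxy
      · exact ⟨c, y, hx, hy, hxy⟩
    exact ⟨delta_of_mv S (Mv.inv S (hmv hac hy hy')), delta_of_mv S (hmv hcb hz hz')⟩
  have h2 : PE p (a * (g * b * g⁻¹)) := hab g
  have h3 : PE p ((g * b * g⁻¹) * a) := by
    have := h2.conj a⁻¹
    have e : a⁻¹ * (a * (g * b * g⁻¹)) * a⁻¹⁻¹ = (g * b * g⁻¹) * a := by group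
    rwa [e] at this
  refine ⟨H82.AH.pe_of_mul S hth hfaith hac h2 key, ?_⟩
  have h4 := (H82.AH.pe_of_mul S hth hfaith hcb h3 fun i => (key i).symm).conj g⁻¹
  have e : g⁻¹ * (g * b * g⁻¹) * g⁻¹⁻¹ = b := by group
  rwa [e] at h4

end Cfsg.Agent.H197.Cls

namespace Cfsg.Agent.H197.Cls.F4

open Cfsg.Agent.Tits.Core Cfsg.Agent.Tits.Core.Bldg Cfsg.Agent.Tits.Exchange Cfsg.Agent.Tits Cfsg.Agent.FixBN
  Cfsg.Agent.H150.AH Cfsg.Agent.H197.Cls

variable {W : Type*} [Group W] {cs : CoxeterSystem CoxeterMatrix.F₄ W} {C : Type*}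

local prefix:100 "ℓ" => cs.length

variable {Δ : Bldg cs C} {G : Type*} [Group G] [MulAction G C] {p : ℕ} (S : Sys Δ G p)

variable [hp : Fact p.Prime] [Finite W] [Finite C]

include S in
/-- **Type `F₄`** : the shortest common displacement different from `1` is `w_{1,2}` -/
theorem minJ (hth : Δ.Thick) {a b : G} (hab : Good p a b) {J : Set (Fin 4)} (h : MinJ Δ a b J) : J = {1, 2} := by
  have F : OppRes.Cox cs := OppRes.instCox
  have n01 : ¬ ((0 : Fin 4) ∈ J ∧ (1 : Fin 4) ∈ J) := fun hh => h.not_both S hth rfl hh.1 hh.2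
  have n23 : ¬ ((2 : Fin 4) ∈ J ∧ (3 : Fin 4) ∈ J) := fun hh => h.not_both S hth rfl hh.1 hh.2
  have hst : ∀ i j : Fin 4, CoxeterMatrix.F₄ i j = 3 → i ∈ J →
      (∀ k ∈ J, k ≠ i → CoxeterMatrix.F₄ k i = 2 ∧ CoxeterMatrix.F₄ k j = 2) → False := fun i j hM hi hc =>
    h.star S hth hab hM hi hc
  obtain ⟨i0, hi0⟩ := h.nonempty
  have h1 : (1 : Fin 4) ∈ J := by
    by_contra h1
    by_cases h2 : (2 : Fin 4) ∈ J
    · refine hst 2 3 rfl h2 fun k hk hk2 => ?_
      fin_cases k
      · exact ⟨rfl, rfl⟩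
      · exact absurd hk h1
      · exact absurd rfl hk2
      · exact absurd ⟨h2, hk⟩ n23
    by_cases h0 : (0 : Fin 4) ∈ J
    · refine hst 0 1 rfl h0 fun k hk hk2 => ?_
      fin_cases k
      · exact absurd rfl hk2
      · exact absurd hk h1
      · exact absurd hk h2
      · exact ⟨rfl, rfl⟩
    · refine hst 3 2 rfl ?_ fun k hk hk2 => ?_
      · fin_cases i0
        · exact absurd hi0 h0
        · exact absurd hi0 h1
        · exact absurd hi0 h2
        · exact hi0
      · fin_cases k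
        · exact absurd hk h0
        · exact absurd hk h1
        · exact absurd hk h2
        · exact absurd rfl hk2
  have h2 : (2 : Fin 4) ∈ J := by
    by_contra h2
    refine hst 1 0 rfl h1 fun k hk hk2 => ?_
    fin_cases k
    · exact absurd ⟨hk, h1⟩ n01
    · exact absurd rfl hk2
    · exact absurd hk h2
    · exact ⟨rfl, rfl⟩
  ext k
  fin_cases k
  · simp only [Fin.zero_eta, Set.mem_insert_iff, Set.mem_singleton_iff]
    exact ⟨fun hk => absurd ⟨hk, h1⟩ n01, fun hk => by rcases hk with hk | hk <;> exact absurd hk (by decide)⟩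
  · exact ⟨fun _ => by simp, fun _ => h1⟩
  · exact ⟨fun _ => by simp, fun _ => h2⟩
  · exact ⟨fun hk => absurd ⟨h2, hk⟩ n23, fun hk => by rcases hk with hk | hk <;> exact absurd hk (by decide)⟩

include S in
/-- Type `F₄`, `Dis ⊆ {1, w0}` : `Dis ⊆ {1}` -/
theorem le_one_of_w0 (hth : Δ.Thick) {a b : G} (hab : Good p a b)
    (hd : ∀ w ∈ Dis Δ a b, w = 1 ∨ w = w0 cs) : ∀ w ∈ Dis Δ a b, w = 1 := by
  have F : OppRes.Cox cs := OppRes.instCox
  intro w hw
  by_contra hw1
  obtain ⟨J, hJ⟩ := exists_minJ S hth hab hw hw1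
  have hJ2 := minJ S hth hab hJ
  rw [hJ2] at hJ
  rcases hd _ hJ.mem with h1 | h1
  · exact hJ.ne h1
  · have h2 := lt_of_not_mem (cs := cs) (i := (0 : Fin 4)) (J := {1, 2}) (by decide) (F.wJ_mem _)
    rw [h1] at h2
    have h3 := wJ_lt (cs := cs) (i := (0 : Fin 4)) (J := Set.univ) (Set.mem_univ _)
    have h4 : wJ cs Set.univ = w0 cs := rfl
    rw [h4] at h3
    omega

include S in
/-- Type `F₄`, three chambers on the panels of the node `1` : `Dis ⊆ {1}` -/
theorem le_one_of_two [Finite G] (hth : Δ.Thick) (hfaith : ∀ g : G, (∀ c : C, g • c = c) → g = 1)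
    (h3 : ∀ c : C, Nat.card {D // D ∈ Δ.Pan 1 c} = 3) {a b : G} (hab : Good p a b) : ∀ w ∈ Dis Δ a b, w = 1 := by
  have F : OppRes.Cox cs := OppRes.instCox
  intro w hw
  by_contra hw1
  obtain ⟨J, hJ⟩ := exists_minJ S hth hab hw hw1
  have hJ2 := minJ S hth hab hJ
  rw [hJ2] at hJ
  by_cases h1 : (1 : W) ∈ Dis Δ a b
  · rw [Set.pair_comm] at hJ
    obtain ⟨ha, hb⟩ := pe_of_one_mem' S hth hfaith hab h1 fun i hi => by
      have h2 := hJ.min _ hi (by
        intro h4
        have h5 := congrArg cs.length h4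
        rw [cs.length_simple, cs.length_one] at h5
        omega)
      rw [len_w4 (show CoxeterMatrix.F₄ 2 1 = 4 from rfl), cs.length_simple] at h2
      omega
    exact quad_one S hth hab (show CoxeterMatrix.F₄ 2 1 = 4 from rfl) hJ h3 ha hb
  · exact quad_min S hth hab (show CoxeterMatrix.F₄ 1 2 = 4 from rfl) hJ h1

end Cfsg.Agent.H197.Cls.F4
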