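import Cfsg.Agent.H82.AH.PackAll
import Cfsg.Agent.H772.Cls.Simply
import Cfsg.Agent.H400.LieSimple
import Cfsg.Agent.H197.Cls.FFour

/-!
# S2451, helper197: the rows `NotC` for `E₆(q), E₇(q), E₈(q)` and `Dis ⊆ {1}` for `F₄(q)`, `²E₆(q)`
-/

set_option autoImplicit false
set_option linter.unusedSectionVars false

open scoped Pointwise

namespace Cfsg.Agent.H197.Cls

open Cfsg.Agent.Tits.Core Cfsg.Agent.Tits.Core.Bldg Cfsg.Agent.Tits.Exchange Cfsg.Agent.Tits Cfsg.Agent.FixBN
  Cfsg.Agent.H330.ClassProd Cfsg.Agent.H27.AH Cfsg.Agent.H82.AH Cfsg.Lie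

universe u

/-- the conclusion from the package -/
theorem notC_of_hasDis {p : ℕ} [hp : Fact p.Prime] {G : Type u} [Group G] {l : ℕ} {M : CoxeterMatrix (Fin l)}
    {qs : Fin l → ℕ} (h : HasDis p G M qs (fun _ _ _ w => w = 1)) (hconn : Conn3 M) : NotC p G := by
  obtain ⟨W, _, _, cs, C, _, _, _, Δ, S, hth, hq, hfaith, hdis⟩ := h
  exact notC_of_sys S hfaith hconn fun a b hab w hw => hdis a b hab w hw

theorem hasDis_one_of_nbd {p : ℕ} [hp : Fact p.Prime] {G : Type u} [Group G] {l : ℕ} {M : CoxeterMatrix (Fin l)}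
    {qs : Fin l → ℕ} (h : HasDis p G M qs (fun _ _ _ _ => True)) (hM : H772.Cls.Nbd M) :
    HasDis p G M qs (fun _ _ _ w => w = 1) := by
  obtain ⟨W, _, _, cs, C, _, _, _, Δ, S, hth, hq, hfaith, hdis⟩ := h
  exact ⟨W, inferInstance, inferInstance, cs, C, inferInstance, inferInstance, inferInstance, Δ, S, hth, hq, hfaith,
    fun a b hab w hw => H772.Cls.dis_le_one S hth hab hM hw⟩

section

variable (F : Type) [Field F] [Fintype F] (p : ℕ) [CharP F p]

include F in
theorem fact_prime : Fact p.Prime := ⟨CharP.char_is_prime F p⟩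

include p in
theorem simple_E6 : IsSimpleGroup ↥(chevE6.group F) :=
  H400.LieSimple.isSimple_of_lie (p := p) (by
    refine Or.inr (Or.inr (Or.inr (Or.inr (Or.inr (Or.inr (Or.inl ?_))))))
    exact ⟨F, inferInstance, inferInstance, inferInstance, Or.inr (Or.inr (Or.inl ⟨MulEquiv.refl _⟩))⟩)

include p in
theorem simple_E7 : IsSimpleGroup ↥(chevE7.group F) :=
  H400.LieSimple.isSimple_of_lie (p := p) (by
    refine Or.inr (Or.inr (Or.inr (Or.inr (Or.inr (Or.inr (Or.inl ?_))))))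
    exact ⟨F, inferInstance, inferInstance, inferInstance, Or.inr (Or.inr (Or.inr (Or.inl ⟨MulEquiv.refl _⟩)))⟩)

include p in
theorem simple_E8 : IsSimpleGroup ↥(chevE8.group F) :=
  H400.LieSimple.isSimple_of_lie (p := p) (by
    refine Or.inr (Or.inr (Or.inr (Or.inr (Or.inr (Or.inr (Or.inl ?_))))))
    exact ⟨F, inferInstance, inferInstance, inferInstance, Or.inr (Or.inr (Or.inr (Or.inr ⟨MulEquiv.refl _⟩)))⟩)

include p in
theorem simple_F4 : IsSimpleGroup ↥(chevF4.group F) :=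
  H400.LieSimple.isSimple_of_lie (p := p) (by
    refine Or.inr (Or.inr (Or.inr (Or.inr (Or.inr (Or.inr (Or.inl ?_))))))
    exact ⟨F, inferInstance, inferInstance, inferInstance, Or.inr (Or.inl ⟨MulEquiv.refl _⟩)⟩)

include p in
theorem simple_twE6 {q : ℕ} (hq : IsPrimePow q) (hF : Fintype.card F = q ^ 2) : IsSimpleGroup ↥(twistedE6 F q) :=
  H400.LieSimple.isSimple_of_lie (p := p) (by
    refine Or.inr (Or.inr (Or.inr (Or.inr (Or.inr (Or.inr (Or.inr (Or.inl ?_)))))))
    exact ⟨F, inferInstance, inferInstance, inferInstance, q, hq, Or.inl ⟨hF, ⟨MulEquiv.refl _⟩⟩⟩)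

/-- **`E₆(q)`** -/
theorem notC_E6 : NotC p ↥(chevE6.group F) := by
  have := fact_prime F p
  have := simple_E6 F p
  exact notC_of_hasDis (hasDis_one_of_nbd (hasDis_E6_all p) H772.Cls.nbd_E6) conn3_E6

/-- **`E₇(q)`** -/
theorem notC_E7 : NotC p ↥(chevE7.group F) := by
  have := fact_prime F p
  have := simple_E7 F p
  exact notC_of_hasDis (hasDis_one_of_nbd (hasDis_E7_all p) H772.Cls.nbd_E7) conn3_E7

/-- **`E₈(q)`** -/
theorem notC_E8 : NotC p ↥(chevE8.group F) := by
  have := fact_prime F p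
  have := simple_E8 F p
  exact notC_of_hasDis (hasDis_one_of_nbd (hasDis_E8_all p) H772.Cls.nbd_E8) conn3_E8

/-- type `F₄`, `q = 2` -/
theorem hasDis_one_of_two {p : ℕ} [hp : Fact p.Prime] {G : Type u} [Group G] {qs : Fin 4 → ℕ}
    (h : HasDis p G CoxeterMatrix.F₄ qs (fun _ _ _ _ => True)) (h1 : qs 1 = 2) :
    HasDis p G CoxeterMatrix.F₄ qs (fun _ _ _ w => w = 1) := by
  obtain ⟨W, _, _, cs, C, _, _, _, Δ, S, hth, hq, hfaith, hdis⟩ := h
  have : Finite G := by
    refine Finite.of_injective (β := C → C) (fun g c => g • c) fun g g' hgg => ?_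
    have h2 : g⁻¹ * g' = 1 := by
      apply hfaith
      intro c
      have h3 := congrFun hgg c
      change g • c = g' • c at h3
      rw [mul_smul, ← h3, inv_smul_smul]
    rw [inv_mul_eq_one] at h2
    exact h2
  refine ⟨W, inferInstance, inferInstance, cs, C, inferInstance, inferInstance, inferInstance, Δ, S, hth, hq, hfaith,
    fun a b hab w hw => F4.le_one_of_two S hth hfaith (fun c => ?_) hab w hw⟩
  have h2 := hq 1 c
  rw [h1] at h2
  exact h2

/-- **`F₄(q)`**, all `q` : `Dis ⊆ {1}` -/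
theorem hasDis_F4_one :
    HasDis p ↥(chevF4.group F) CoxeterMatrix.F₄ (fun _ => Fintype.card F) (fun _ _ _ w => w = 1) := by
  have := fact_prime F p
  have := simple_F4 F p
  rcases (show Fintype.card F = 2 ∨ 3 ≤ Fintype.card F by
    have := Fintype.one_lt_card (α := F)
    omega) with h2 | h3
  · exact hasDis_one_of_two (hasDis_F4_all p) h2
  · obtain ⟨W, _, _, cs, C, _, _, _, Δ, S, hth, hq, hfaith, hdis⟩ := hasDis_F4_three p (K := F) h3
    exact ⟨W, inferInstance, inferInstance, cs, C, inferInstance, inferInstance, inferInstance, Δ, S, hth, hq, hfaith,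
      fun a b hab w hw => F4.le_one_of_w0 S hth hab (fun w hw => hdis a b hab w hw) w hw⟩

/-- **`²E₆(q)`**, all `q` : `Dis ⊆ {1}` -/
theorem hasDis_twE6_one {q : ℕ} (hqp : IsPrimePow q) (hF : Fintype.card F = q ^ 2) :
    HasDis p ↥(twistedE6 F q) CoxeterMatrix.F₄ ![q, q, q ^ 2, q ^ 2] (fun _ _ _ w => w = 1) := by
  have := fact_prime F p
  have := simple_twE6 F p hqp hF
  rcases (show q = 2 ∨ 3 ≤ q by have := hqp.two_le; omega) with h2 | h3
  · refine hasDis_one_of_two (hasDis_twE6_all p hqp hF) ?_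
    show q = 2
    exact h2
  · exact hasDis_twE6 p hqp hF h3

end

end Cfsg.Agent.H197.Cls
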